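import Cfsg.Agent.H26.CvA

/-! The case C(u) = 2 x PGL2(7) (see notes/CV.md). -/

set_option autoImplicit false
set_option linter.unusedSectionVars false

namespace Cfsg.Agent.CV

open Subgroup H70

namespace A2x

variable {G : Type*} [Group G] [Finite G] {x s : G} {W : Subgroup G}

theorem ex {p q w : G} (h : p * q = w) : (∀ r, p * (q * r) = w * r) ∧ p * q = w :=
  ⟨fun r => by rw [← mul_assoc, h], h⟩

theorem same {g k p q : G} (h1 : g * p * g⁻¹ = q) (h2 : k * p * k⁻¹ = q) : Commute (k⁻¹ * g) p := by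
  rw [Commute, SemiconjBy, mul_assoc, mul_inv_eq_iff_eq_mul.1 h1, ← h2]; group

theorem cyc {g z b c f : G} (hz : Commute g z) (hf : g * f * g⁻¹ ∈ zpowers f) (fb : Commute f b)
    (s1 : ∃ φ ∈ zpowers f, g * b * g⁻¹ = c * φ) (s2 : ∃ φ ∈ zpowers f, g * c * g⁻¹ = c * b * φ)
    (s3 : ∃ φ ∈ zpowers f, g * (c * b) * g⁻¹ = b * φ) (n : ¬ Commute c b) : T3 z := by
  have st : ∀ {p q : G} {m : ℕ}, (∃ φ ∈ zpowers f, g * p * g⁻¹ = q * φ) →
      (∃ φ ∈ zpowers f, g ^ m * b * (g ^ m)⁻¹ = p * φ) →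
      ∃ φ ∈ zpowers f, g ^ (m + 1) * b * (g ^ (m + 1))⁻¹ = q * φ := by
    rintro p q m ⟨φ, h1, e1⟩ ⟨_, ⟨k, rfl⟩, e2⟩
    refine ⟨_, mul_mem h1 (zpow_mem hf k), ?_⟩
    rw [← mul_assoc, ← e1, conj_zpow, show g ^ (m + 1) * b * (g ^ (m + 1))⁻¹ =
      g * (g ^ m * b * (g ^ m)⁻¹) * g⁻¹ by group, e2]
    group
  have key : ∀ j, ∃ φ ∈ zpowers f, g ^ (3 * j) * b * (g ^ (3 * j))⁻¹ = b * φ := fun j => by
    induction j with
    | zero => exact ⟨1, one_mem _, by simp⟩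
    | succ j ih => exact st s3 (st s2 (st s1 ih))
  have c1 : ∀ φ ∈ zpowers f, Commute φ b := by rintro _ ⟨k, rfl⟩; exact fb.zpow_left k
  obtain ⟨j, e | e | e⟩ : ∃ j, orderOf g = 3 * j ∨ orderOf g = 3 * j + 1 ∨ orderOf g = 3 * j + 1 + 1 :=
    ⟨orderOf g / 3, by omega⟩
  · have : j ≠ 0 := fun k => (orderOf_pos g).ne' (by rw [e, k])
    exact ⟨g ^ j, by rw [orderOf_pow' _ this, e, Nat.gcd_mul_left_left, Nat.mul_div_cancel _ (by omega)],
      hz.pow_left j⟩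
  · obtain ⟨φ, h1, h2⟩ := st s1 (key j)
    rw [← e, pow_orderOf_eq_one, one_mul, inv_one, mul_one] at h2
    exact absurd (eq_mul_inv_of_mul_eq h2.symm ▸ (Commute.refl b).mul_left (c1 φ h1).inv_left) n
  · obtain ⟨φ, h1, h2⟩ := st s2 (st s1 (key j))
    rw [← e, pow_orderOf_eq_one, one_mul, inv_one, mul_one, mul_assoc] at h2
    exact absurd (eq_mul_inv_of_mul_eq h2.symm ▸ (Commute.refl b).mul_left
      ((Commute.refl b).mul_left (c1 φ h1)).inv_left) n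

theorem step3 {t z b c e τ a : G} (tt : t * t = 1) (zz : z * z = 1) (bb : b * b = 1) (cc : c * c = 1)
    (ee : e * e = 1) (ττ : τ * τ = 1) (z1 : z ≠ 1) (zt : z * t = t * z) (bt : b * t = t * b)
    (ct : c * t = t * c) (bz : b * z = z * b) (cz : c * z = z * c) (ze : z * e = e * z)
    (be : b * e = e * b) (ce : c * e = e * c) (cb : c * b = z * b * c) (te : t * e = e * t * z)
    (τz : τ * z = z * τ) (τb : τ * b = b * τ) (τt : τ * t = t * b * τ)
    (hE : ∀ g, Commute g t → Commute g z → Commute g b →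
      ∃ v, (v = 1 ∨ v = z ∨ v = b ∨ v = z * b) ∧ (g = v ∨ g = t * v))
    (hc : ∀ l, l = c ∨ l = z * c → ¬ IsConj c (e * l))
    (ae : a * e = e * a) (at' : a * t = t * a) (az : a * z = z * a) (ab : a * b = c * a)
    (ac : a * c = z * b * a) : T3 z := by
  have R := And.intro (And.intro (And.intro (And.intro (ex tt) (ex zz)) (And.intro (ex bb) (ex cc)))
    (And.intro (And.intro (ex ee) (ex ττ)) (And.intro (ex zt) (ex bt)))) (And.intro (And.intro
    (And.intro (And.intro (ex ct) (ex bz)) (And.intro (ex cz) (ex ze))) (And.intro (And.intro (ex be)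
    (ex ce)) (And.intro (ex cb) (ex te)))) (And.intro (And.intro (And.intro (ex τz) (ex τb))
    (And.intro (ex τt) (ex ae))) (And.intro (And.intro (ex at') (ex az)) (And.intro (ex ab) (ex ac)))))
  have I := And.intro (And.intro (inv_eq_of_mul_eq_one_right tt) (inv_eq_of_mul_eq_one_right zz))
    (And.intro (And.intro (inv_eq_of_mul_eq_one_right bb) (inv_eq_of_mul_eq_one_right cc))
    (And.intro (inv_eq_of_mul_eq_one_right ee) (inv_eq_of_mul_eq_one_right ττ)))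
  have A := And.intro (And.intro R I) (And.intro (And.intro (mul_assoc (G := G)) (mul_inv_rev (G := G)))
    (And.intro (mul_one (M := G)) (one_mul (M := G))))
  obtain ⟨v0, hv0, h0⟩ := hE (e⁻¹ * (τ * e * τ⁻¹))
    (same (q := t * z) (by simp only [A]) (by simp only [A]))
    (same (q := z) (by simp only [A]) (by simp only [A]))
    (same (q := b) (by simp only [A]) (by simp only [A]))
  obtain ⟨v, hv, h1⟩ := hE ((τ * e)⁻¹ * (c * τ * c⁻¹))
    (same (q := t * z * b) (by simp only [A]) (by simp only [A]))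
    (same (q := z) (by simp only [A]) (by simp only [A]))
    (same (q := b) (by simp only [A]) (by simp only [A]))
  have q0 : τ * e * τ⁻¹ * (τ * e * τ⁻¹) = 1 := by simp only [A]
  have q1 : τ * c * τ⁻¹ * (τ * c * τ⁻¹) = 1 := by simp only [A]
  have q2 : τ * c * τ⁻¹ * (τ * e * τ⁻¹) = τ * e * τ⁻¹ * (τ * c * τ⁻¹) := by simp only [A]
  have e0 : τ * e * τ⁻¹ = e * v0 := by
    rcases h0 with h0 | h0 <;> rw [inv_mul_eq_iff_eq_mul] at h0
    · exact h0
    · rw [h0] at q0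
      rcases hv0 with rfl | rfl | rfl | rfl <;> simp only [A] at q0 <;> exact absurd q0 z1
  have e1 : ∀ k, (τ * e)⁻¹ * (c * τ * c⁻¹) = k → τ * c * τ⁻¹ = e * k * c := fun k hk => by
    rw [← hk]; simp only [A]
  rcases h1 with h1 | h1 <;> replace h1 := e1 _ h1
  · rw [h1] at q1
    rcases hv with rfl | rfl | rfl | rfl
    · exact absurd (conj_of (h1.trans (by rw [mul_one]))) (hc _ (.inl rfl))
    · exact absurd (conj_of (h1.trans (mul_assoc _ _ _))) (hc _ (.inr rfl))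
    all_goals simp only [A] at q1; exact absurd q1 z1
  have hv' : v = b ∨ v = z * b := by
    rw [h1] at q1
    rcases hv with rfl | rfl | h | h
    · simp only [A] at q1; exact absurd q1 z1
    · simp only [A] at q1; exact absurd q1 z1
    exacts [.inl h, .inr h]
  have hv0' : v0 = b ∨ v0 = z * b := by
    rw [h1, e0] at q2
    rcases hv0 with rfl | rfl | h | h
    · rcases hv' with rfl | rfl <;> simp only [A, mul_right_inj] at q2 <;> simp [z1] at q2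
    · rcases hv' with rfl | rfl <;> simp only [A, mul_right_inj] at q2 <;> simp [z1] at q2
    exacts [.inl h, .inr h]
  have τe := ex (mul_inv_eq_iff_eq_mul.1 e0)
  have τc := ex (mul_inv_eq_iff_eq_mul.1 h1)
  have m1 : e * t ∈ zpowers (e * t) := mem_zpowers _
  have m2 : z ∈ zpowers (e * t) := ⟨2, by simp only [zpow_two, A]⟩
  refine cyc (g := a * τ) (b := b) (c := c) (f := e * t) (by simp only [Commute, SemiconjBy, A]) ?_
    (by simp only [Commute, SemiconjBy, A]) ⟨1, one_mem _, ?_⟩ ?_ ?_ fun k => z1 ?_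
  · rcases hv0' with rfl | rfl
    · convert m1 using 1
      rw [mul_inv_eq_iff_eq_mul]; simp only [A, τe]
    · convert mul_mem m1 m2 using 1
      rw [mul_inv_eq_iff_eq_mul]; simp only [A, τe]
  · rw [mul_inv_eq_iff_eq_mul]; simp only [A]
  · rcases hv' with rfl | rfl
    · exact ⟨_, mul_mem m1 m2, by rw [mul_inv_eq_iff_eq_mul]; simp only [A, τc]⟩
    · exact ⟨_, m1, by rw [mul_inv_eq_iff_eq_mul]; simp only [A, τc]⟩
  · rcases hv' with rfl | rfl
    · exact ⟨_, m1, by rw [mul_inv_eq_iff_eq_mul]; simp only [A, τc]⟩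
    · exact ⟨_, mul_mem m1 m2, by rw [mul_inv_eq_iff_eq_mul]; simp only [A, τc]⟩
  · rw [k.eq, mul_assoc, right_eq_mul] at cb
    exact cb

namespace PD

variable {t a b x₁ x₂ : G} {K L : Subgroup G} (D : PD t K L a b x₁ x₂)
include D

/-- the Sylow subgroup of the centraliser -/
abbrev SS (t a : G) : Subgroup G := centralizer {t} ⊓ centralizer {a ^ 4}

omit D in
theorem mem_SS {g : G} : g ∈ SS t a ↔ Commute g t ∧ Commute g (a ^ 4) :=
  and_congr mem_centralizer_singleton_iff mem_centralizer_singleton_iff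

theorem tz : Commute t (a ^ 4) := D.ct (pow_mem D.aK 4)
theorem aS (i : ℤ) : a ^ i ∈ SS t a :=
  mem_SS.2 ⟨(D.ct (D.aiK i)).symm, ((Commute.refl a).pow_right 4).zpow_left i⟩
theorem bS : b ∈ SS t a := mem_SS.2 ⟨(D.ct D.bK).symm, D.bz⟩
theorem tS : t ∈ SS t a := mem_SS.2 ⟨Commute.refl t, D.tz⟩

theorem cS {g : G} (h : g ∈ SS t a) :
    ∃ i : ℤ, g = a ^ i ∨ g = a ^ i * b ∨ g = t * a ^ i ∨ g = t * (a ^ i * b) := by
  obtain ⟨h1, h2⟩ := mem_SS.1 h
  rcases D.cent h1 with k | ⟨k, hk, rfl⟩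
  · obtain ⟨i, e | e⟩ := D.centz g k h2
    exacts [⟨i, .inl e⟩, ⟨i, .inr (.inl e)⟩]
  · obtain ⟨i, rfl | rfl⟩ := D.centz k hk (by simpa using D.tz.inv_left.mul_left h2)
    exacts [⟨i, .inr (.inr (.inl rfl))⟩, ⟨i, .inr (.inr (.inr rfl))⟩]

theorem z_eq {i : ℤ} (h : i % 8 = 4) : a ^ i = a ^ 4 := by rw [← zpow_ofNat, D.aeq, h]; rfl
theorem one_eq {i : ℤ} : a ^ i = 1 ↔ i % 8 = 0 := by rw [← zpow_zero a, D.aeq]; rfl

theorem four_pow {g : G} (h : g ∈ SS t a) : g ^ 4 = 1 ∨ g ^ 4 = a ^ 4 := by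
  have h1 : ∀ i : ℤ, (a ^ i) ^ 4 = 1 ∨ (a ^ i) ^ 4 = a ^ 4 := fun i => by
    rw [← zpow_natCast, ← zpow_mul]
    exact (by omega : (i * (4 : ℕ)) % 8 = 0 ∨ (i * (4 : ℕ)) % 8 = 4).imp D.one_eq.2 D.z_eq
  have h2 : ∀ g : G, g ^ 4 = g * g * (g * g) := fun g => by rw [← sq, ← sq, ← pow_mul]
  obtain ⟨i, rfl | rfl | rfl | rfl⟩ := D.cS h
  · exact h1 i
  · exact .inl (by rw [h2, D.B_sq, one_mul])
  · rw [h2, D.tk_sq (D.aiK i), ← h2]; exact h1 i
  · exact .inl (by rw [h2, D.tk_sq (D.BK i), D.B_sq, one_mul])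

theorem fix_z {n : G} (hn : n ∈ normalizer (SS t a : Set G)) : n * a ^ 4 * n⁻¹ = a ^ 4 := by
  have := D.four_pow (conj_mem_of_mem_norm hn (D.aS 1))
  rw [zpow_one, conj_pow] at this
  exact this.resolve_left fun e => D.z_ne (conj_eq_one_iff.1 e)

theorem a_inv {i : ℤ} (h : a ^ i * a ^ i = 1) : a ^ i = 1 ∨ a ^ i = a ^ 4 := by
  rw [← zpow_add, D.one_eq] at h
  exact (by omega : i % 8 = 0 ∨ i % 8 = 4).imp D.one_eq.2 D.z_eq

theorem nab {i : ℤ} (h : Commute b (a ^ i)) : a ^ i = 1 ∨ a ^ i = a ^ 4 := D.a_inv (by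
  have := h.eq
  rw [D.b_a, mul_left_inj, zpow_neg] at this
  exact mul_eq_one_iff_inv_eq.2 this)

theorem nab1 : ¬ Commute b a := fun h => by
  have := D.nab (i := 1) (by rwa [zpow_one])
  rw [D.one_eq, ← zpow_ofNat, D.aeq] at this
  omega

theorem cE (g : G) (h1 : Commute g t) (h2 : Commute g (a ^ 4)) (h3 : Commute g b) :
    ∃ v, (v = 1 ∨ v = a ^ 4 ∨ v = b ∨ v = a ^ 4 * b) ∧ (g = v ∨ g = t * v) := by
  have c : ∀ {k : G}, Commute (t * k) b → Commute k b := fun h => by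
    simpa using (D.ct D.bK).inv_left.mul_left h
  have c' : ∀ {i : ℤ}, Commute (a ^ i * b) b → a ^ i * b = b ∨ a ^ i * b = a ^ 4 * b := fun h => by
    simpa using D.nab (by simpa using (h.mul_left (Commute.refl b).inv_left).symm)
  obtain ⟨i, rfl | rfl | rfl | rfl⟩ := D.cS (mem_SS.2 ⟨h1, h2⟩)
  · exact ⟨_, (D.nab h3.symm).imp_right .inl, .inl rfl⟩
  · exact ⟨_, .inr (.inr (c' h3)), .inl rfl⟩
  · exact ⟨_, (D.nab (c h3).symm).imp_right .inl, .inr rfl⟩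
  · exact ⟨_, .inr (.inr (c' (c h3))), .inr rfl⟩

theorem odd_conj {j : ℤ} (h : j % 2 = 1) :
    IsConj (a * b) (a ^ j * b) ∧ IsConj (t * (a * b)) (t * (a ^ j * b)) := by
  have := D.a_B (j / 2) 1
  rw [zpow_one, show 1 + 2 * (j / 2) = j by omega] at this
  exact ⟨conj_of this, D.conj_t (D.aiK _) this⟩

variable (h : Ctx x s W) (hW : Nat.card W = 4)
include h hW

theorem exists_n : ∃ n ∈ normalizer (SS t a : Set G), n * t * n⁻¹ = t * a ^ 4 := by
  have p : IsPGroup 2 (SS t a) := isPGroup_iff_mem.2 fun g hg => ⟨3, by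
    rw [show 2 ^ 3 = 4 * 2 from rfl, pow_mul, sq]
    rcases D.four_pow hg with e | e <;> rw [e]
    exacts [one_mul _, D.zz]⟩
  have h1 : H92.SylIn 2 (SS t a) (centralizer {t}) := ⟨inf_le_left, p, fun Q a1 a2 a3 =>
    (eq_of_inf_norm_le a2 a3 fun g hg => ⟨a1 hg.1, mem_centralizer_singleton_iff.2
      (mul_inv_eq_iff_eq_mul.1 (D.fix_z hg.2))⟩).symm⟩
  obtain ⟨g, e⟩ := isConj_iff.1 (D.P2 h hW D.zL D.oz)
  have e' : g⁻¹ * (t * a ^ 4) * g⁻¹⁻¹ = t := by rw [← e]; group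
  obtain ⟨c, hc, h2⟩ := sylIn_exists_cj_le h1 (cj_le_iff.2 fun v hv => mem_centralizer_singleton_iff.2
    (e' ▸ comm_conj ((mem_SS.1 hv).1.mul_right (mem_SS.1 hv).2) g⁻¹)) (isPGroup_cj g⁻¹ p)
  rw [← cj_mul] at h2
  have h3 := mem_normalizer_of_cj_le h2
  refine ⟨_, h3, ?_⟩
  have h4 : c * g⁻¹ * (t * a ^ 4) * (c * g⁻¹)⁻¹ = t := by
    rw [show c * g⁻¹ * (t * a ^ 4) * (c * g⁻¹)⁻¹ = c * (g⁻¹ * (t * a ^ 4) * g⁻¹⁻¹) * c⁻¹ by group, e',
      mem_centralizer_singleton_iff.1 hc, mul_inv_cancel_right]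
  rw [← conj_mul, D.fix_z h3] at h4
  rw [eq_mul_inv_of_mul_eq h4, inv_eq_of_mul_eq_one_right D.zz]

theorem even_conj {n : G} (hn : n ∈ normalizer (SS t a : Set G)) (e : n * t * n⁻¹ = t * a ^ 4)
    {i : ℤ} (hi : i % 2 = 0) : ∃ j : ℤ, j % 2 = 0 ∧ n * (a ^ i * b) * n⁻¹ = a ^ j * b := by
  obtain ⟨n1, n2, -⟩ := D.nc h hW
  have c := (D.P2 h hW (D.B_even hi) (D.oB i)).trans (conj_of (g := n) rfl)
  have q := sq_of_two (order_of_conj c D.ot)
  obtain ⟨j, k | k | k | k⟩ := D.cS (conj_mem_of_mem_norm hn (mul_mem D.tS (mul_mem (D.aS i) D.bS))) <;>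
    rw [k] at c q
  · rcases D.a_inv q with m | m <;> rw [m] at c
    exacts [absurd (isConj_one_left.1 c) (ne_of_two D.ot), absurd c.symm (D.P1 D.spl D.zL D.oz)]
  · rcases (by omega : j % 2 = 0 ∨ j % 2 = 1) with m | m
    exacts [absurd c.symm (D.P1 D.spl (D.B_even m) (D.oB j)), absurd (c.trans (D.odd_conj m).1.symm) n1]
  · rw [← conj_mul, e, mul_assoc, mul_right_inj] at k
    have k1 : n * (a ^ i * b) * n⁻¹ = n * ((a ^ 4)⁻¹ * a ^ j) * n⁻¹ := by
      rw [eq_inv_mul_of_mul_eq k]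
      rcases D.a_inv (D.tk_sq (D.aiK j) ▸ q) with m | m <;> rw [m]
      · rw [mul_one, inv_eq_of_mul_eq_one_right D.zz, D.fix_z hn]
      · group
    rw [mul_left_inj, mul_right_inj, ← zpow_ofNat, ← zpow_neg, ← zpow_add] at k1
    exact absurd k1 (D.B_ne _ _)
  · rcases (by omega : j % 2 = 0 ∨ j % 2 = 1) with m | m
    · rw [← conj_mul, e, mul_assoc, mul_right_inj] at k
      exact ⟨-4 + j, by omega, by rw [eq_inv_mul_of_mul_eq k]; group⟩
    · exact absurd (c.trans (D.odd_conj m).2.symm) n2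

theorem exists_n2 : ∃ n ∈ normalizer (SS t a : Set G), n * t * n⁻¹ = t * a ^ 4 ∧ Commute n b ∧
    Commute n (a ^ 2) := by
  have m : ∀ k ∈ SS t a, ∀ n ∈ normalizer (SS t a : Set G), n * t * n⁻¹ = t * a ^ 4 →
      k * n ∈ normalizer (SS t a : Set G) ∧ k * n * t * (k * n)⁻¹ = t * a ^ 4 := fun k hk n hn e =>
    ⟨mul_mem (le_normalizer hk) hn, by
      rw [show k * n * t * (k * n)⁻¹ = k * (n * t * n⁻¹) * k⁻¹ by group, e,
        ((mem_SS.1 hk).1.mul_right (mem_SS.1 hk).2).eq, mul_inv_cancel_right]⟩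
  obtain ⟨n, hn, e⟩ := D.exists_n h hW
  obtain ⟨j, hj, e1⟩ := D.even_conj h hW hn e (i := 0) rfl
  obtain ⟨hn1, e2⟩ := m _ (D.aS (-(j / 2))) n hn e
  have c1 : a ^ (-(j / 2)) * n * b * (a ^ (-(j / 2)) * n)⁻¹ = b := by
    rw [show a ^ (-(j / 2)) * n * b * (a ^ (-(j / 2)) * n)⁻¹ =
      a ^ (-(j / 2)) * (n * (a ^ (0 : ℤ) * b) * n⁻¹) * (a ^ (-(j / 2)))⁻¹ by group, e1, D.a_B,
      show j + 2 * -(j / 2) = 0 by omega, zpow_zero, one_mul]
  generalize a ^ (-(j / 2)) * n = n at hn1 e2 c1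
  obtain ⟨k, -, e3⟩ := D.even_conj h hW hn1 e2 (i := 2) rfl
  rw [← conj_mul, c1, mul_left_inj] at e3
  have e4 := D.fix_z hn1
  rw [show n * a ^ 4 * n⁻¹ = n * a ^ (2 : ℤ) * n⁻¹ * (n * a ^ (2 : ℤ) * n⁻¹) by group, e3, ← zpow_add,
    ← zpow_ofNat, D.aeq] at e4
  rcases (by omega : k % 8 = 2 % 8 ∨ (-k) % 8 = 2 % 8) with l | l
  · exact ⟨n, hn1, e2, mul_inv_eq_iff_eq_mul.1 c1, by
      rw [D.aeq.2 l, zpow_ofNat] at e3; exact mul_inv_eq_iff_eq_mul.1 e3⟩
  · refine ⟨b * n, (m _ D.bS n hn1 e2).1, (m _ D.bS n hn1 e2).2,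
      (Commute.refl b).mul_left (mul_inv_eq_iff_eq_mul.1 c1), mul_inv_eq_iff_eq_mul.1 ?_⟩
    rw [show b * n * a ^ 2 * (b * n)⁻¹ = b * (n * a ^ (2 : ℤ) * n⁻¹) * b⁻¹ by group, e3, D.b_a,
      D.aeq.2 l, mul_inv_cancel_right, zpow_ofNat]

theorem exists_e : ∃ e a', e * e = 1 ∧ e * t * e⁻¹ = t * a ^ 4 ∧ Commute e b ∧ Commute e (a ^ 2) ∧
    (a' = a ∨ a' = t * a) ∧ Commute e a' := by
  obtain ⟨n, hn, e, c1, c2⟩ := D.exists_n2 h hW
  have c3 : Commute n (a ^ 4) := mul_inv_eq_iff_eq_mul.1 (D.fix_z hn)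
  have q : n * a * n⁻¹ * (n * a * n⁻¹) = a ^ (2 : ℤ) := by
    rw [conj_mul, ← sq, c2.eq, mul_inv_cancel_right, zpow_ofNat]
  have q' : a ^ (2 : ℤ) ≠ 1 := by rw [Ne, D.one_eq]; decide
  have e1 : n * a * n⁻¹ = a ∨ n * a * n⁻¹ = a * a ^ 4 := by
    obtain ⟨j, k | k | k | k⟩ := D.cS (conj_mem_of_mem_norm hn (D.aS 1)) <;> rw [zpow_one] at k <;>
      rw [k] at q
    · rw [← zpow_add, D.aeq] at q
      rw [k]
      refine (by omega : j % 8 = 1 % 8 ∨ j % 8 = 5 % 8).imp (fun l => ?_) fun l => ?_ <;> rw [D.aeq.2 l]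
      exacts [zpow_one a, by group]
    · exact absurd (q.symm.trans (D.B_sq j)) q'
    · rw [D.tk_sq (D.aiK j), ← zpow_add, D.aeq] at q
      exact absurd ((conj_of (g := n) (by rw [← conj_mul, k, c1.eq, mul_inv_cancel_right, mul_assoc])).trans
        (D.odd_conj (j := j) (by omega)).2.symm) (D.nc h hW).2.2
    · exact absurd (q.symm.trans ((D.tk_sq (D.BK j)).trans (D.B_sq j))) q'
  obtain ⟨a', ha', c4⟩ : ∃ a', (a' = a ∨ a' = t * a) ∧ Commute n a' := by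
    rcases e1 with e1 | e1
    · exact ⟨a, .inl rfl, mul_inv_eq_iff_eq_mul.1 e1⟩
    · refine ⟨_, .inr rfl, mul_inv_eq_iff_eq_mul.1 ?_⟩
      rw [← conj_mul, e, e1, show t * a ^ 4 * (a * a ^ 4) = t * a * (a ^ 4 * a ^ 4) by group, D.zz, mul_one]
  have c5 : Commute (n * n) t := mul_inv_eq_iff_eq_mul.1 (by
    rw [show n * n * t * (n * n)⁻¹ = n * (n * t * n⁻¹) * n⁻¹ by group, e, ← conj_mul, e, D.fix_z hn,
      mul_assoc, D.zz, mul_one])
  have c6 : Commute t a' := by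
    rcases ha' with rfl | rfl
    exacts [D.ct D.aK, (Commute.refl t).mul_right (D.ct D.aK)]
  have c7 : ¬ Commute a' b := fun c => D.nab1 (by
    rcases ha' with rfl | rfl
    exacts [c.symm, by simpa using ((D.ct D.bK).inv_left.mul_left c).symm])
  have c8 : Commute (a ^ 4) a' := by
    rcases ha' with rfl | rfl
    exacts [(Commute.refl _).pow_left 4, D.tz.symm.mul_right ((Commute.refl _).pow_left 4)]
  have c9 : ¬ Commute n t := fun c => D.z_ne (by rwa [c.eq, mul_inv_cancel_right, left_eq_mul] at e)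
  have d := (c4.mul_left c4).symm
  have d' := (Commute.refl n).mul_right (Commute.refl n)
  obtain ⟨v, hv, k | k⟩ := D.cE (n * n) c5 (c3.mul_left c3) (c1.mul_left c1) <;> rw [k] at d d'
  · rcases hv with rfl | rfl | rfl | rfl
    · exact ⟨n, a', k, e, c1, c2, ha', c4⟩
    · refine ⟨n * t, a', ?_, by rw [← e]; group, c1.mul_left (D.ct D.bK),
        c2.mul_left (D.ct (pow_mem D.aK 2)), ha', c4.mul_left c6⟩
      rw [show n * t * (n * t) = n * t * n⁻¹ * (n * n) * t by group, e, k, mul_assoc t, D.zz, mul_one, D.tt]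
    · exact absurd d c7
    · exact absurd (by simpa using c8.symm.inv_right.mul_right d) c7
  · refine absurd ?_ c9
    have : Commute n v := by
      rcases hv with rfl | rfl | rfl | rfl
      exacts [Commute.one_right n, c3, c1, c3.mul_right c1]
    simpa using d'.mul_right this.inv_right

end PD

end A2x

open A2x

variable {G : Type*} [Group G] [Finite G] {x s : G} {W : Subgroup G}

theorem Ctx.a2 (h : Ctx x s W) (hW : Nat.card W = 4)
    (loc : ∀ t : G, orderOf t = 2 → ¬ Group.IsSolvable (centralizer ({t} : Set G)) → A2 t)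
    {u : G} (hu : u ∈ W) (h1 : u ≠ 1) (h2 : A2 u) : False := by
  obtain ⟨K, L, a, b, x₁, x₂, D⟩ := exists_pd (two_of (h.sq u hu) h1) h2
  obtain ⟨e, a', ee, eu, eb, ea2, ha', ea⟩ := D.exists_e h hW
  have ez : Commute e (a ^ 4) := by simpa [← pow_mul] using ea2.pow_right 2
  have ua2 := D.ct (pow_mem D.aK 2)
  have com : ∀ g : G, g * u * g⁻¹ = u * a ^ 4 → g * u * g⁻¹ * u⁻¹ = a ^ 4 := fun g k => by
    rw [k, D.tz.eq, mul_inv_cancel_right]
  have z2 : a ^ 2 * (a * b) * (a ^ 2)⁻¹ = a ^ 4 * (a * b) := by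
    have := D.a_B 2 1
    rw [zpow_one, zpow_ofNat] at this
    rw [this]; group
  have otw : orderOf (u * (a * b)) = 2 := two_of (by rw [D.tk_sq D.abK, sq_of_two D.oab])
    fun k => D.tK D.abK (k ▸ one_mem _)
  have xu := (D.ct D.x₂K).symm
  have key : ∀ o g : G, o = a * b ∨ o = u * (a * b) → Commute g o → g * u * g⁻¹ = u * a ^ 4 → A2 o := by
    rintro o g (rfl | rfl) c k
    exacts [loc _ D.oab (sol_inv h.h9 D.ox₂ D.x₂c c (D.ct D.abK) (com g k) D.x₂z),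
      loc _ otw (sol_inv h.h9 D.ox₂ (xu.mul_right D.x₂c) c ((Commute.refl u).mul_right (D.ct D.abK))
        (com g k) D.x₂z)]
  have eu' : e * a ^ 2 * u * (e * a ^ 2)⁻¹ = u * a ^ 4 := by
    rw [mul_assoc e, ← ua2.eq, ← eu]; group
  have eo := ea.mul_right eb
  obtain ⟨A1, A2'⟩ : A2 (a * b) ∧ A2 (u * (a * b)) := by
    rcases ha' with rfl | rfl
    · refine ⟨key _ e (.inl rfl) eo eu, key _ _ (.inr rfl) (mul_inv_eq_iff_eq_mul.1 ?_) eu'⟩
      rw [← conj_mul, eu', show e * a' ^ 2 * (a' * b) * (e * a' ^ 2)⁻¹ =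
        e * (a' ^ 2 * (a' * b) * (a' ^ 2)⁻¹) * e⁻¹ by group, z2, (ez.mul_right eo).eq,
        mul_inv_cancel_right, mul_assoc, ← mul_assoc (a' ^ 4), D.zz, one_mul]
    · rw [mul_assoc] at eo
      refine ⟨key _ _ (.inl rfl) (mul_inv_eq_iff_eq_mul.1 ?_) eu', key _ e (.inr rfl) eo eu⟩
      rw [show e * a ^ 2 * (a * b) * (e * a ^ 2)⁻¹ = e * (a ^ 2 * (a * b) * (a ^ 2)⁻¹) * e⁻¹ by group, z2,
        show e * (a ^ 4 * (a * b)) * e⁻¹ = e * a ^ 4 * e⁻¹ * (e * u * e⁻¹)⁻¹ * (e * (u * (a * b)) * e⁻¹) by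
          group, ez.eq, eu, eo.eq]
      group
  have hA : ∀ i, orderOf i = 2 → T3 i → A2 i := fun i hi h3 => by
    rcases D.cls h hW hi h3 with c | c | c
    exacts [a2_conj h2 c, a2_conj A1 c, a2_conj A2' c]
  have hz : ∀ l ∈ L, orderOf l = 2 → ¬ T3 l := fun l hl ol h3 =>
    let ⟨_, k, _⟩ := hA l ol h3
    D.P1 k hl ol (IsConj.refl l)
  have oe : orderOf e = 2 := two_of ee fun k => D.z_ne (by simpa [k] using eu)
  have sq : e * u * (e * u) = a ^ 4 := by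
    rw [show e * u * (e * u) = e * u * e⁻¹ * (e * e) * u by group, eu, ee, mul_one, D.tz.eq, mul_assoc,
      D.tt, mul_one]
  have e3 : T3 e := by
    obtain ⟨o, ho, oo, ao, c1⟩ : ∃ o, (o = a * b ∨ o = u * (a * b)) ∧ orderOf o = 2 ∧ A2 o ∧ Commute e o := by
      rcases ha' with rfl | rfl
      exacts [⟨_, .inl rfl, D.oab, A1, eo⟩, ⟨_, .inr rfl, otw, A2', mul_assoc u a b ▸ eo⟩]
    obtain ⟨c2, c3, n⟩ : Commute u o ∧ Commute x₂ o ∧ o * u ≠ 1 := by
      rcases ho with rfl | rfl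
      · exact ⟨D.ct D.abK, D.x₂c, fun k => D.tK D.abK (by rw [(D.ct D.abK).eq, k]; exact one_mem _)⟩
      · exact ⟨(Commute.refl u).mul_right (D.ct D.abK), xu.mul_right D.x₂c, fun k => ne_of_two D.oab (by
          rwa [(D.ct D.abK).eq, mul_assoc, D.tt, mul_one] at k)⟩
    obtain ⟨K', L', _, _, _, _, D'⟩ := exists_pd oo ao
    refine (D'.P3 h hW oe c1).resolve_left fun m => D.z_ne ?_
    have xK : x₂ ∈ K' := (D'.spl.all _ c3).resolve_right fun k => D'.spl.notMem (by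
      have := pow_mem k 3
      rwa [c3.symm.mul_pow, ← D.ox₂, pow_orderOf_eq_one, mul_one, D.ox₂, pow_succ, pow_two, D'.tt,
        one_mul] at this)
    obtain ⟨k, hk, k1, k2, k3⟩ : ∃ k ∈ K', orderOf k = 2 ∧ Commute k x₂ ∧ e * k * (e * k) = a ^ 4 := by
      rcases D'.spl.all _ c2 with k | k
      · exact ⟨u, k, D.ot, xu.symm, sq⟩
      · refine ⟨_, k, two_of (by rw [c2.mul_mul_mul_comm, D'.tt, D.tt, one_mul]) n,
          c3.symm.mul_left xu.symm, ?_⟩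
        rw [← mul_assoc e o, c1.eq, mul_assoc o, (c1.mul_left c2).mul_mul_mul_comm, D'.tt, one_mul, sq]
    rw [← k3]
    exact D'.four _ (mul_mem (D'.LK m) hk) (mt (mul_mem_cancel_left m).1 (D'.six _ xK _ hk D.ox₂ k1 k2))
      (by rw [show 4 = 2 * 2 from rfl, pow_mul, pow_two, pow_two, k3, D.zz])
  obtain ⟨_, _, _, _, _, _, D'⟩ := exists_pd oe (hA e oe e3)
  have cL : a ^ 2 * b ∈ L := by simpa [zpow_ofNat] using D.B_even (i := 2) rfl
  have oc : orderOf (a ^ 2 * b) = 2 := by simpa [zpow_ofNat] using D.oB 2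
  have ec := ea2.mul_right eb
  have hc : ∀ l, l = a ^ 2 * b ∨ l = a ^ 4 * (a ^ 2 * b) → ¬ IsConj (a ^ 2 * b) (e * l) := fun l hl c => by
    obtain ⟨l1, l2, l3⟩ : l ∈ L ∧ orderOf l = 2 ∧ Commute l e := by
      rcases hl with rfl | rfl
      exacts [⟨cL, oc, ec.symm⟩, ⟨mul_mem D.zL cL, by
        rw [show a ^ 4 * (a ^ 2 * b) = a ^ (6 : ℤ) * b by group]; exact D.oB 6, (ez.mul_right ec).symm⟩]
    exact hz _ cL oc ((e3.conj (D'.P2 h hW ((D'.P3 h hW l2 l3).resolve_right (hz l l1 l2)) l2)).conj c.symm)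
  have x1u : x₁ * u * x₁⁻¹ = u := by rw [← (D.ct D.x₁K).eq, mul_inv_cancel_right]
  have zb := D.bz.eq
  have t1 : Commute (x₁ * e * x₁⁻¹) b := D.x₁z ▸ comm_conj ez x₁
  have t2 : Commute (x₁ * e * x₁⁻¹) (a ^ 4 * b) := D.x₁b ▸ comm_conj eb x₁
  have ab1 : a * b = a ^ 2 * b * a := by
    have := D.a_B 1 0
    rw [zpow_one, zpow_zero, one_mul, mul_inv_eq_iff_eq_mul] at this
    rw [this]; group
  have ab2 : a * (a ^ 2 * b) = a ^ 4 * b * a := by
    rw [← mul_assoc, pow_succ' a 2 |>.symm, pow_succ, mul_assoc, ab1]; group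
  have uc := D.ct (D.LK cL)
  refine hz _ D.zL D.oz (step3 (τ := x₁ * e * x₁⁻¹) (a := a') D.tt D.zz D.bb (sq_of_two oc) ee
    (by rw [conj_mul, ee]; group) D.z_ne D.tz.symm (D.ct D.bK).symm uc.symm zb
    ((Commute.pow_pow_self a 2 4).mul_left D.bz) ez.symm eb.symm ec.symm ?_ ?_
    (Commute.eq (by simpa using t2.mul_right t1.inv_right)) t1 ?_ D.cE hc ea.symm ?_ ?_ ?_ ?_)
  · have := D.b_a 2
    rw [zpow_ofNat] at this
    rw [mul_assoc, D.bb, mul_assoc, ← mul_assoc b, this, mul_assoc, D.bb]; group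
  · rw [mul_assoc, ← eu, ← mul_assoc, ← mul_assoc, ee, one_mul, inv_eq_of_mul_eq_one_right ee]
  · rw [← mul_inv_eq_iff_eq_mul, ← D.x₁z]
    nth_rw 2 [← x1u]
    rw [conj_mul, ← eu]
    nth_rw 1 [← x1u]
    group
  · rcases ha' with rfl | rfl
    exacts [(D.ct D.aK).symm, ((Commute.refl u).mul_right (D.ct D.aK)).symm]
  · rcases ha' with rfl | rfl
    exacts [(Commute.refl _).pow_right 4, D.tz.mul_left ((Commute.refl _).pow_right 4)]
  · rcases ha' with rfl | rfl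
    exacts [ab1, by rw [mul_assoc, ab1, ← mul_assoc, uc.eq, mul_assoc _ u]]
  · rcases ha' with rfl | rfl
    exacts [ab2, by rw [mul_assoc, ab2, ← mul_assoc, (D.tz.mul_right (D.ct D.bK)).eq, mul_assoc _ u]]

end Cfsg.Agent.CV
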