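import Cfsg.Agent.H70.Syl
import Cfsg.Agent.H2.MinNormal
import Cfsg.Agent.H2.Basic
import Cfsg.Agent.H18.SmallTools
import Cfsg.Agent.H59.TI
import Cfsg.Agent.H3.PGroup
import Cfsg.Agent.S0200

/-! General lemmas for the case N(Q) = 2^6.L3(2). -/

set_option autoImplicit false

namespace Cfsg.Agent.CV.E6

open Subgroup Cfsg.Agent.H70

variable {G : Type*} [Group G] [Finite G]

theorem eq3 (h9 : ¬ 9 ∣ Nat.card G) {P S : Subgroup G} (hS : IsPGroup 3 S) (h : P ≤ S)
    (h1 : P ≠ ⊥) : S = P := by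
  obtain ⟨k, hk⟩ := IsPGroup.iff_card.1 hS
  have h3 : Nat.card S ∣ 3 := by
    obtain _ | _ | k := k
    · simp [hk]
    · simp [hk]
    · exact (h9 (Dvd.dvd.trans ⟨3 ^ k, by rw [hk]; ring⟩ (card_subgroup_dvd_card S))).elim
  refine (eq_of_le_of_card_ge h ?_).symm
  rw [((Nat.dvd_prime Nat.prime_three).1 ((card_dvd_of_le h).trans h3)).resolve_left
    fun e => h1 (card_eq_one.1 e)]
  exact Nat.le_of_dvd (by decide) h3

omit [Finite G] in
theorem pg3 {a : G} (h : orderOf a = 3) : IsPGroup 3 (zpowers a) :=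
  .of_card (n := 1) (by rw [Nat.card_zpowers, h, pow_one])

omit [Finite G] in
theorem ne1 {a : G} {n : ℕ} (h : orderOf a = n + 2) : a ≠ 1 := fun e => by simp [e] at h

theorem conj3 (h9 : ¬ 9 ∣ Nat.card G) {K : Subgroup G} {a b : G} (ha : a ∈ K) (hb : b ∈ K)
    (oa : orderOf a = 3) (ob : orderOf b = 3) : ∃ k ∈ K, k * a * k⁻¹ ∈ zpowers b := by
  obtain ⟨k, hk, e⟩ := H92.SylIn.exists_conj (p := 3) ⟨zpowers_le.2 hb, pg3 ob, fun _ _ h1 h2 =>
    eq3 h9 h1 h2 (zpowers_ne_bot.2 (ne1 ob))⟩ (zpowers_le.2 ha) (pg3 oa)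
  exact ⟨k, hk, e a (mem_zpowers a)⟩

theorem sol3 (n : ℕ) : ∀ {X : Type*} [Group X] [Finite X] [Group.IsSolvable X], Nat.card X = n →
    ¬ 9 ∣ n → ∀ x h q : X, orderOf x = 3 → orderOf h = 3 → q * h * q⁻¹ = h⁻¹ →
    (x * (q * x⁻¹ * q⁻¹)) ^ 2 = 1 → False := by
  induction n using Nat.strong_induction_on with
  | _ n ih =>
  intro X _ _ _ hn h9 x h q ox oh e c
  have := nontrivial_of_ne _ _ (ne1 ox)
  obtain ⟨M, p, hp, hM, h1, -, h2, h3, -⟩ := H2.exists_minimal_normal_of_solvable (G := X)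
  by_cases p3 : p = 3
  · subst p3 hn
    have k : ∀ {y}, orderOf y = 3 → y ∈ M := fun oy => eq3 h9
      (isPGroup_sup_of_norm (pg3 oy) h2 norm_of_normal) le_sup_right h1 ▸ mem_sup_left (mem_zpowers _)
    have h4 := h3 _ (mul_mem (k ox) (hM.conj_mem _ (inv_mem (k ox)) q))
    rw [pow_succ, c, one_mul, ← mul_assoc, ← mul_assoc, mul_inv_eq_one, mul_inv_eq_iff_eq_mul] at h4
    obtain ⟨i, rfl⟩ : h ∈ zpowers x :=
      eq3 h9 h2 (zpowers_le.2 (k ox)) (zpowers_ne_bot.2 (ne1 ox)) ▸ k oh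
    rw [← ((show Commute x q from h4).zpow_left i).eq, mul_inv_cancel_right,
      eq_inv_iff_mul_eq_one, ← sq, ← orderOf_dvd_iff_pow_eq_one, oh] at e
    omega
  · have k : ∀ {y}, orderOf y = 3 → orderOf (QuotientGroup.mk' M y) = 3 := fun {y} oy =>
      orderOf_eq_prime (by rw [← map_pow, ← oy, pow_orderOf_eq_one, map_one]) fun e => p3
        ((Nat.prime_dvd_prime_iff_eq Nat.prime_three hp).1 (oy ▸ orderOf_dvd_of_pow_eq_one
          (h3 y ((QuotientGroup.eq_one_iff y).1 e)))).symm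
    refine ih _ (hn ▸ H2.card_quotient_lt M h1) rfl
      (fun h => h9 (hn ▸ h.trans (card_quotient_dvd_card M))) _ _ (QuotientGroup.mk' M q) (k ox)
      (k oh) (by simpa using congrArg (QuotientGroup.mk' M) e)
      (by simpa using congrArg (QuotientGroup.mk' M) c)

omit [Finite G] in
theorem comm_of_sq {E : Subgroup G} (h : ∀ e ∈ E, e * e = 1) {a b : G} (ha : a ∈ E) (hb : b ∈ E) :
    a * b = b * a := by
  rw [← inv_eq_of_mul_eq_one_right (h _ (mul_mem ha hb)), mul_inv_rev,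
    inv_eq_of_mul_eq_one_right (h a ha), inv_eq_of_mul_eq_one_right (h b hb)]

/-- `e ↦ e e^g` -/
def cmH {E : Subgroup G} (h : ∀ e ∈ E, e * e = 1) {g : G} (hg : g ∈ normalizer (E : Set G)) :
    E →* G := MonoidHom.mk' (fun e => e * (g * e * g⁻¹)) fun a b => by
  rw [coe_mul, ← conj_mul]
  exact (show Commute _ _ from comm_of_sq h b.2 (conj_mem_of_mem_norm hg a.2)).mul_mul_mul_comm _ _

theorem dih {E : Subgroup G} [hE : E.Normal] (h2 : ∀ e ∈ E, e * e = 1) {h q : G} {p : ℕ}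
    (hp : p.Prime) (p7 : 7 ≤ p) (oh : orderOf h = p) (qq : q * q = 1) (e : q * h * q⁻¹ = h⁻¹)
    (i4 : (centralizer {q}).relIndex E ≤ 4) : ∀ a ∈ E, h * a * h⁻¹ = a := by
  let U := (cmH h2 (g := h) (norm_of_normal (mem_top h))).range
  have mU : ∀ {u}, u ∈ U ↔ ∃ a ∈ E, a * (h * a * h⁻¹) = u :=
    ⟨fun ⟨a, e⟩ => ⟨a, a.2, e⟩, fun ⟨a, h, e⟩ => ⟨⟨a, h⟩, e⟩⟩
  have UE : U ≤ E := fun u hu => by
    obtain ⟨a, ha, rfl⟩ := mU.1 hu
    exact mul_mem ha (hE.conj_mem a ha h)
  have U2 : ∀ u ∈ U, u * u = 1 := fun u hu => h2 u (UE hu)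
  have nh : h ∈ normalizer (U : Set G) := mem_normalizer_of_cj_le (cj_le_iff.2 fun u hu => by
    obtain ⟨a, ha, rfl⟩ := mU.1 hu
    exact mU.2 ⟨_, hE.conj_mem a ha h, conj_mul⟩)
  have e1 : h * (q * h) = q := by rw [mul_inv_eq_iff_eq_mul.1 e, mul_inv_cancel_left]
  have nq : q ∈ normalizer (U : Set G) := mem_normalizer_of_cj_le (cj_le_iff.2 fun u hu => by
    obtain ⟨a, ha, rfl⟩ := mU.1 hu
    refine mU.2 ⟨_, hE.conj_mem a ha (q * h), ?_⟩
    rw [show h * (q * h * a * (q * h)⁻¹) * h⁻¹ = h * (q * h) * a * (h * (q * h))⁻¹ by group, e1,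
      comm_of_sq h2 (hE.conj_mem a ha _) (hE.conj_mem a ha q)]
    group)
  have od : Odd p := hp.odd_of_ne_two (by omega)
  have fix : ∀ u ∈ U, Commute u (h * h) → u = 1 := fun u hu c => by
    have c1 : Commute u h := by
      obtain ⟨k, hk⟩ := od
      have := c.pow_right (k + 1)
      rwa [← sq, ← pow_mul, mul_add, pow_add, pow_two, ← mul_assoc, ← pow_succ, ← hk, ← oh,
        pow_orderOf_eq_one, one_mul] at this
    obtain ⟨a, ha, e⟩ := mU.1 hu
    have : ∀ n : ℕ, h ^ n * a * (h ^ n)⁻¹ = a * u ^ n := fun n => by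
      induction n with
      | zero => simp
      | succ n ih =>
        rw [pow_succ', mul_inv_rev, mul_assoc h, ← mul_assoc, mul_assoc h, ih, ← conj_mul,
          ← (c1.pow_left n).eq, mul_inv_cancel_right, pow_succ', ← mul_assoc,
          show a * u = _ by rw [← e, ← mul_assoc, h2 a ha, one_mul]]
    have h3 := this p
    obtain ⟨k, hk⟩ := od
    rwa [← oh, pow_orderOf_eq_one, one_mul, inv_one, mul_one, left_eq_mul, oh, hk, pow_succ, pow_mul,
      sq, U2 u hu, one_pow, one_mul] at h3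
  have m1 := H18.modEq_cent_prime hp U oh nh
  rw [show U ⊓ centralizer {h} = ⊥ from eq_bot_iff.2 fun u hu => fix u hu.1
    (Commute.mul_right (mem_centralizer_singleton_iff.1 hu.2) (mem_centralizer_singleton_iff.1 hu.2)),
    card_bot] at m1
  let A := centralizer {q} ⊓ U
  have m2 := H2.card_inf_mul_relIndex (centralizer {q}) U
  have m3 : (centralizer {q}).relIndex U ≤ (centralizer {q}).relIndex E :=
    relIndex_le_of_le_right UE index_ne_zero_of_finite
  have m4 : Nat.card A ≤ (centralizer {q}).relIndex U := by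
    have := H2.card_inf_mul_relIndex (centralizer {q}) (cj h A)
    rw [show centralizer {q} ⊓ cj h A = ⊥ from eq_bot_iff.2 fun u hu => by
      have h1 : u * q = q * u := mem_centralizer_singleton_iff.1 hu.1
      have h3 : Commute (h⁻¹ * u * h) q := mem_centralizer_singleton_iff.1 (mem_cj.1 hu.2).1
      refine fix u (cj_le_of_mem_norm nh inf_le_right hu.2) ?_
      have h4 : h * h = h * q * h⁻¹ * q := by
        rw [← e, inv_eq_of_mul_eq_one_right qq]
        simp only [mul_assoc, qq, mul_one]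
        rw [← mul_assoc q, qq, one_mul]
      rw [h4]
      refine Commute.mul_right ?_ h1
      have := h3.conj h
      rwa [show h * (h⁻¹ * u * h) * h⁻¹ = u by group] at this, card_bot, one_mul, card_cj] at this
    exact this ▸ relIndex_le_of_le_right (cj_le_of_mem_norm nh inf_le_right) index_ne_zero_of_finite
  have m5 : (centralizer {q}).relIndex U ≤ Nat.card A := by
    have : (cmH U2 nq).ker = (centralizer {q}).subgroupOf U := Subgroup.ext fun u => by
      change u.1 * (q * u * q⁻¹) = 1 ↔ _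
      rw [mem_subgroupOf, mem_centralizer_singleton_iff, ← U2 u u.2, mul_right_inj,
        mul_inv_eq_iff_eq_mul, eq_comm]
    rw [relIndex, ← this, index_ker]
    refine card_le_of_le ?_
    rintro _ ⟨u, rfl⟩
    refine ⟨mem_centralizer_singleton_iff.2 ?_, mul_mem u.2 (conj_mem_of_mem_norm nq u.2)⟩
    change u.1 * (q * u * q⁻¹) * q = q * (u.1 * (q * u * q⁻¹))
    nth_rewrite 1 [comm_of_sq U2 u.2 (conj_mem_of_mem_norm nq u.2)]
    simp only [mul_assoc, inv_eq_of_mul_eq_one_right qq]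
  have m6 : Nat.card U = 1 := by
    have h0 : 0 < Nat.card A := Nat.card_pos
    rw [le_antisymm m5 m4] at m2 m3
    rw [← m2] at m1 ⊢
    have := (Nat.modEq_iff_dvd' (Nat.mul_pos h0 h0)).1 m1.symm
    have m7 := m3.trans i4
    generalize Nat.card A = c at h0 m7 this
    clear * - h0 m7 this hp p7
    interval_cases c
    · rfl
    all_goals
      have := Nat.le_of_dvd (by decide) this
      interval_cases p <;> first | omega | norm_num at hp
  intro a ha
  have := mU.2 ⟨a, ha, rfl⟩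
  rw [card_eq_one.1 m6, mem_bot, ← h2 a ha, mul_right_inj] at this
  exact this

end Cfsg.Agent.CV.E6
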