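import Cfsg.Agent.CV.Defs
import Cfsg.Agent.CV.E64a
import Cfsg.Agent.H36.G168c
import Cfsg.Agent.H9.SLBasic

/-! The case N(Q) = 2^6.L3(2) (see notes/CV.md). -/

set_option autoImplicit false
set_option linter.unusedSectionVars false

namespace Cfsg.Agent.CV

open Subgroup Cfsg.Agent.H70 E6

variable {G : Type*} [Group G] [Finite G] {x s : G} {W : Subgroup G}

namespace E6

omit [Finite G] in
theorem memW (h : Ctx x s W) {g : G} (h1 : Commute g x) (h2 : g * g = 1) : g ∈ W := by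
  have k : ∀ w ∈ W, ∀ y : G, Commute w y → orderOf y = 3 → w * y * (w * y) ≠ 1 :=
    fun w hw y c o e => by
      rw [c.symm.mul_mul_mul_comm, h.sq w hw, one_mul, ← sq, ← orderOf_dvd_iff_pow_eq_one, o] at e
      omega
  obtain ⟨w, hw, rfl | rfl | rfl⟩ := h.cent g h1
  · exact hw
  · exact (k w hw x (h.cx w hw) h.hx h2).elim
  · exact (k w hw _ (h.cx w hw).inv_right ((orderOf_inv x).trans h.hx) h2).elim

omit [Finite G] in
theorem zp3 {x a : G} (hx : orderOf x = 3) (h : a ∈ zpowers x) (h1 : a ≠ 1) : a = x ∨ a = x⁻¹ := by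
  obtain ⟨n, rfl⟩ := h
  have h3 : x ^ (3 : ℤ) = 1 := by exact_mod_cast hx ▸ pow_orderOf_eq_one x
  obtain ⟨k, rfl | rfl | rfl⟩ : ∃ k, n = 3 * k ∨ n = 3 * k + 1 ∨ n = 3 * k - 1 :=
    ⟨(n + 1) / 3, by omega⟩ <;> simp [zpow_add, zpow_sub, zpow_mul, h3] at h1 ⊢

omit [Finite G] in
theorem norm_x (h : Ctx x s W) {M : Subgroup G} (hW : W ≤ M) (hx : x ∈ M) (hs : s ∈ M) {a g : G}
    (ha : a ∈ zpowers x) (h1 : a ≠ 1) (hg : g * a * g⁻¹ ∈ zpowers x) : g ∈ M := by
  have k : ∀ g, g * x * g⁻¹ = x → g ∈ M := fun g e => by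
    obtain ⟨w, hw, rfl | rfl | rfl⟩ := h.cent g (mul_inv_eq_iff_eq_mul.1 e)
    exacts [hW hw, mul_mem (hW hw) hx, mul_mem (hW hw) (inv_mem hx)]
  have : g * x * g⁻¹ ∈ zpowers x := by
    rcases zp3 h.hx ha h1 with rfl | rfl
    exacts [hg, by simpa [mul_assoc] using inv_mem hg]
  rcases zp3 h.hx this (by simpa using ne1 h.hx) with e | e
  · exact k g e
  · exact (M.mul_mem_cancel_left (inv_mem hs)).1 (k _ (by
      rw [mul_inv_rev, mul_assoc s⁻¹, mul_assoc s⁻¹, ← mul_assoc _ g⁻¹, e, ← h.inv]; group))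

variable {Q : Subgroup G} {L : Type*} [Group L] (φ : normalizer (Q : Set G) →* L)

/-- image in the quotient -/
def bar (A : Subgroup G) : Subgroup L := (A.subgroupOf _).map φ

/-- an elementary subgroup of order 64 of `N(Q)` other than `Q` -/
structure Off (Q A : Subgroup G) : Prop where
  le : A ≤ normalizer (Q : Set G)
  sq : ∀ a ∈ A, a * a = 1
  card : Nat.card A = 64
  ne : A ≠ Q

omit [Finite G] in
theorem Off.cj {A : Subgroup G} (h : Off Q A) {m : G} (hm : m ∈ normalizer (Q : Set G)) :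
    Off Q (cj m A) :=
  ⟨cj_le_of_mem hm h.le, fun a ha => by
    simpa [mul_assoc, inv_mul_eq_one] using congrArg (fun a => m * a * m⁻¹) (h.sq _ (mem_cj.1 ha)),
    (card_cj _ _).trans h.card, fun e => h.ne ((cj_inj m).1 (e.trans (cj_eq_self hm).symm))⟩

omit [Finite G] in
theorem bar_cj (A : Subgroup G) (m : normalizer (Q : Set G)) :
    bar φ (cj m A) = cj (φ m) (bar φ A) := by
  rw [bar, ← cj_subgroupOf, map_cj, bar]

variable {φ} (hk : φ.ker = Q.subgroupOf _)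
include hk

omit [Finite G] in
theorem bar_card {A : Subgroup G} (h : A ≤ normalizer (Q : Set G)) :
    Nat.card (bar φ A) = Q.relIndex A := by
  rw [bar, ← relIndex_ker, hk, relIndex_subgroupOf h]

omit [Finite G] in
theorem exists_of_bar {A : Subgroup G} {m : normalizer (Q : Set G)} (h : φ m ∈ bar φ A) :
    ∃ q ∈ Q, ∃ a ∈ A, m = q * a := by
  obtain ⟨a, ha, e⟩ := h
  have : m * a⁻¹ ∈ φ.ker := by rw [MonoidHom.mem_ker, map_mul, map_inv, e, mul_inv_cancel]
  exact ⟨_, (hk ▸ this : m * a⁻¹ ∈ Q.subgroupOf _), a, ha, by simp⟩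

omit [Finite G] in
theorem mem_of_bar {A : Subgroup G} (hA : Q ≤ A) {m : normalizer (Q : Set G)}
    (h : φ m ∈ bar φ A) : (m : G) ∈ A := by
  obtain ⟨q, hq, a, ha, e⟩ := exists_of_bar hk h
  exact e ▸ mul_mem (hA hq) ha

variable [Finite L] [IsSimpleGroup L] (hL : Nat.card L = 168)
include hL

theorem rel8 {A : Subgroup G} (h : A ≤ normalizer (Q : Set G)) (h2 : IsPGroup 2 (bar φ A)) :
    Q.relIndex A ∣ 8 := by
  obtain ⟨k, e⟩ := IsPGroup.iff_card.1 h2
  rw [← bar_card hk h]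
  exact H36.G168.dvd_eight (hL ▸ card_subgroup_dvd_card (bar φ A))
    (fun h => absurd (Nat.prime_three.dvd_of_dvd_pow (e ▸ h)) (by decide))
    fun h => absurd ((by norm_num : Nat.Prime 7).dvd_of_dvd_pow (e ▸ h)) (by decide)

theorem card_elem {A : Subgroup G} (h : A ≤ normalizer (Q : Set G)) (h2 : ∀ a ∈ A, a * a ∈ Q) :
    Q.relIndex A ∣ 4 ∧ ∀ a ∈ bar φ A, a * a = 1 := by
  have e : ∀ a ∈ bar φ A, a * a = 1 := by
    rintro _ ⟨a, ha, rfl⟩
    rw [← map_mul, ← MonoidHom.mem_ker, hk]; exact h2 a ha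
  refine ⟨?_, e⟩
  have h8 := rel8 hk hL h (isPGroup_iff_mem.2 fun a ha => ⟨1, (sq a).trans (e a ha)⟩)
  have : Q.relIndex A ≠ 8 := fun h8 => by
    obtain ⟨T, hT⟩ := H36.G168.exists_sylow_of_card hL ((bar_card hk h).trans h8)
    obtain ⟨u, hu, o⟩ := H36.G168.exists_four hL T
    exact absurd (o ▸ orderOf_dvd_of_pow_eq_one ((sq u).trans (e u (hT ▸ hu)))) (by decide)
  generalize Q.relIndex A = n at h8 this
  have := Nat.le_of_dvd (by decide) h8
  interval_cases n <;> omega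

variable (hQ : E64 x s W Q)
include hQ

theorem Off.inf {A : Subgroup G} (h : Off Q A) :
    IsKleinFour (bar φ A) ∧ ∀ a ∈ A, a ∉ Q → Q ⊓ A = Q ⊓ centralizer {a} := by
  obtain ⟨h1, h2⟩ := card_elem hk hL h.le fun a ha => h.sq a ha ▸ Q.one_mem
  have h3 := H2.card_inf_mul_relIndex Q A
  have h4 : ∀ a ∈ A, Q ⊓ A ≤ Q ⊓ centralizer {a} := fun a ha => inf_le_inf_left _ fun b hb =>
    mem_centralizer_singleton_iff.2 (comm_of_sq h.sq hb ha)
  have h5 : ∀ a ∈ A, a ∉ Q → _ := fun a ha hq => hQ.h16 a (h.le ha) hq (h.sq a ha ▸ Q.one_mem)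
  obtain ⟨a, ha, hq⟩ := SetLike.not_le_iff_exists.1 fun e : A ≤ Q =>
    h.ne (eq_of_le_of_card_ge e (by rw [h.card, hQ.card]))
  have h6 := h5 a ha hq ▸ card_le_of_le (h4 a ha)
  have h7 : Q.relIndex A = 4 := by
    have := Nat.le_of_dvd (by decide) h1
    rw [h.card] at h3; nlinarith
  have h8 := (bar_card hk h.le).trans h7
  have := Finite.one_lt_card_iff_nontrivial.1 (h8 ▸ (by decide : 1 < 4))
  refine ⟨⟨h8, (Monoid.exponent_eq_prime_iff Nat.prime_two).2 fun g hg =>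
    orderOf_eq_prime (Subtype.ext ((pow_two _).trans (h2 g g.2))) hg⟩,
    fun a ha hq => eq_of_le_of_card_ge (h4 a ha) ?_⟩
  rw [h5 a ha hq]; rw [h7, h.card] at h3; omega

theorem Off.eq {A B : Subgroup G} (h : Off Q A) (h' : Off Q B) (e : bar φ B = bar φ A) : B = A := by
  have k : ∀ b ∈ B, b ∉ Q → b ∈ A := fun b hb hq => by
    obtain ⟨q, h1, a, ha, rfl⟩ := exists_of_bar hk (m := ⟨b, h'.le hb⟩) (e.le (mem_map_of_mem _ hb))
    refine mul_mem (((h.inf hk hL hQ).2 a ha fun h => hq (mul_mem h1 h)).ge ⟨h1,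
      mem_centralizer_singleton_iff.2 ?_⟩).2 ha
    rw [← inv_eq_of_mul_eq_one_right (h'.sq _ hb), mul_inv_rev,
      inv_eq_of_mul_eq_one_right (h.sq a ha), inv_eq_of_mul_eq_one_right (hQ.sq q h1)]
  obtain ⟨a, ha, hq⟩ := SetLike.not_le_iff_exists.1 fun e : B ≤ Q =>
    h'.ne (eq_of_le_of_card_ge e (by rw [h'.card, hQ.card]))
  refine eq_of_le_of_card_ge (fun b hb => by_contra fun h1 => h1 ?_) (by rw [h.card, h'.card])
  exact (A.mul_mem_cancel_right (k a ha hq)).1 (k _ (mul_mem hb ha) fun h2 => hq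
    ((Q.mul_mem_cancel_left (by_contra fun h3 => h1 (k b hb h3))).1 h2))

theorem Off.norm {A : Subgroup G} (h : Off Q A) {m : normalizer (Q : Set G)}
    (hm : φ m ∈ normalizer (bar φ A : Set L)) : (m : G) ∈ normalizer (A : Set G) :=
  cj_eq_self_iff.1 (h.eq hk hL hQ (h.cj m.2) (by rw [bar_cj, cj_eq_self hm]))

variable (hs : Function.Surjective φ) (h : Ctx x s W) (hW : Nat.card W = 4)
include hs h

theorem Off.noswap {A : Subgroup G} (hA : Off Q A) {n : G} (h1 : H70.cj n Q = A)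
    (h2 : H70.cj n A = Q) : False := by
  let K : Subgroup G := normalizer (Q : Set G) ⊓ normalizer (A : Set G)
  have h3 : 3 ∣ Nat.card K := by
    rw [← H2.card_inf_mul_relIndex Q K, ← bar_card hk inf_le_left]
    refine Dvd.dvd.mul_left (Dvd.dvd.trans ?_ (card_dvd_of_le (H := normalizer (bar φ A : Set L))
      fun l hl => ?_)) _
    · rw [H36.G168.card_norm_klein hL (hA.inf hk hL hQ).1]; decide
    · obtain ⟨m, rfl⟩ := hs l
      exact mem_map_of_mem _ ⟨m.2, hA.norm hk hL hQ hl⟩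
  obtain ⟨⟨y, hy⟩, o⟩ := exists_prime_orderOf_dvd_card' 3 h3
  rw [orderOf_mk] at o
  obtain ⟨k, hk, e⟩ := conj3 h.h9 (K := K) (a := n * y * n⁻¹) (by
    have := conj_mem_cj n hy
    rwa [cj_inf, cj_normalizer, cj_normalizer, h1, h2, inf_comm] at this) hy
    (((MulAut.conj n).orderOf_eq y).trans o) o
  obtain ⟨m, hm, e'⟩ := conj3 h.h9 hy.1 hQ.hx o h.hx
  have := norm_x h (hQ.hW.trans le_normalizer) hQ.hx hQ.hs (g := m * (k * n) * m⁻¹) e'
    (by simpa using ne1 o) (by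
      obtain ⟨i, hi⟩ := e
      have := zpow_mem e' i
      rw [conj_zpow, show y ^ i = _ from hi] at this
      convert this using 1; group)
  rw [mul_mem_cancel_right (inv_mem hm), mul_mem_cancel_left hm,
    Subgroup.mul_mem_cancel_left _ hk.1] at this
  exact hA.ne (h1 ▸ cj_eq_self this)

include hW

theorem weak {g : G} (hg : cj g Q ≤ normalizer (Q : Set G)) : g ∈ normalizer (Q : Set G) := by
  by_contra hn
  have off : ∀ g, cj g Q ≤ normalizer (Q : Set G) → g ∉ normalizer (Q : Set G) → Off Q (cj g Q) :=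
    fun g h1 h2 => ⟨h1, fun a ha => by
      simpa [mul_assoc, inv_mul_eq_one] using congrArg (fun a => g * a * g⁻¹)
        (hQ.sq _ (mem_cj.1 ha)), (card_cj _ _).trans hQ.card, fun e => h2 (cj_eq_self_iff.1 e)⟩
  have hA := off g hg hn
  have hB := off g⁻¹ (le_cj_iff.1 (cj_normalizer g Q ▸ fun q hq => hA.norm hk hL hQ
    (m := ⟨q, le_normalizer hq⟩) ((show φ ⟨q, le_normalizer hq⟩ = 1 from hk.ge hq) ▸ one_mem _))) (by simpa using hn)
  obtain ⟨k1, i1⟩ := hA.inf hk hL hQ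
  obtain ⟨t, ht, t1, -⟩ := H36.klein_exists_ne k1 1
  obtain ⟨t', ht', t1', -⟩ := H36.klein_exists_ne (hB.inf hk hL hQ).1 1
  obtain ⟨l, hl⟩ := isConj_iff.1 ((H36.G168.counts hL).2.2.1 t' t
    (orderOf_eq_prime ((sq _).trans ((card_elem hk hL hB.le fun a ha => hB.sq a ha ▸ Q.one_mem).2
      _ ht')) t1')
    (orderOf_eq_prime ((sq _).trans ((card_elem hk hL hA.le fun a ha => hA.sq a ha ▸ Q.one_mem).2
      _ ht)) t1))
  obtain ⟨m, rfl⟩ := hs l
  have hC := hB.cj m.2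
  obtain ⟨k2, i2⟩ := hC.inf hk hL hQ
  have h1 : bar φ (cj m (cj g⁻¹ Q)) ≠ bar φ (cj g Q) := fun e =>
    hA.noswap hk hL hQ hs h (n := m * g⁻¹) (by rw [cj_mul, hA.eq hk hL hQ hC e])
      (by rw [cj_mul, cj_inv_cj, cj_eq_self m.2])
  obtain ⟨a, ha, rfl⟩ := ht
  have aQ : (a : G) ∉ Q := fun h => t1 (hk.ge h)
  obtain ⟨q, hq, b, hb, e⟩ := exists_of_bar hk (A := cj m (cj g⁻¹ Q)) (m := a)
    (by rw [bar_cj, ← hl]; exact conj_mem_cj _ ht')
  have h2 : Q ⊓ cj m (cj g⁻¹ Q) = Q ⊓ cj g Q := by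
    rw [i1 a ha aQ, i2 b hb fun h => aQ (e ▸ mul_mem hq h), e]
    ext d
    simp only [mem_inf, mem_centralizer_singleton_iff, and_congr_right_iff]
    intro hd
    rw [← mul_assoc, comm_of_sq hQ.sq hd hq, mul_assoc, mul_assoc, mul_right_inj]
  have h3 : ∀ {A : Subgroup G}, Off Q A → normalizer (bar φ A : Set L) ≤
      bar φ (normalizer ((Q ⊓ A : Subgroup G) : Set G)) := fun hA l hl => by
    obtain ⟨m, rfl⟩ := hs l
    exact mem_map_of_mem _ (norm_inf inf_le_left inf_le_right ⟨m.2, hA.norm hk hL hQ hl⟩)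
  have QC : Q ≤ centralizer ((Q ⊓ cj g Q : Subgroup G) : Set G) := fun q hq d hd =>
    comm_of_sq hQ.sq hd.1 hq
  have h4 : bar φ (normalizer ((Q ⊓ cj g Q : Subgroup G) : Set G)) = ⊤ := by_contra fun h4 => by
    have := H36.G168.card_le hL h4
    exact h1 (H36.G168.klein_eq_of_norm_eq hL k2 k1 ((eq_of_le_of_card_ge (h2 ▸ h3 hC)
      (H36.G168.card_norm_klein hL k2 ▸ this)).trans (eq_of_le_of_card_ge (h3 hA)
      (H36.G168.card_norm_klein hL k1 ▸ this)).symm))
  have h5 : (bar φ (centralizer ((Q ⊓ cj g Q : Subgroup G) : Set G))).Normal :=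
    (normal_subgroupOf_iff_le_normalizer_inf.2 (norm_inf (norm_centralizer
      fun m hm => mem_of_bar hk (QC.trans (centralizer_le_normalizer _)) (m := ⟨m, hm⟩)
        (h4 ▸ mem_top _)) le_normalizer)).map φ hs
  have h6 := mem_of_bar hk QC (m := ⟨x, hQ.hx⟩) ((h5.eq_bot_or_eq_top.resolve_left fun e => t1
    (mem_bot.1 (e ▸ mem_map_of_mem _ fun d hd => comm_of_sq hA.sq hd.2 ha))) ▸ mem_top _)
  have := card_le_of_le (show Q ⊓ cj g Q ≤ W from fun d hd => memW h (h6 d hd) (hQ.sq d hd.1))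
  rw [i1 a ha aQ, hQ.h16 a a.2 aQ (hA.sq a ha ▸ Q.one_mem), hW] at this
  omega

theorem le_M {P : Subgroup G} (hP : IsPGroup 2 P) (h1 : Q ≤ P) : P ≤ normalizer (Q : Set G) :=
  (eq_of_inf_norm_le hP (X := P ⊓ normalizer (Q : Set G)) inf_le_left fun _ hg =>
    ⟨hg.1, weak hk hL hQ hs h hW ((cj_le_of_mem_norm hg.2 (le_inf h1 le_normalizer)).trans
      inf_le_right)⟩).ge.trans inf_le_right

theorem fuse {b g : G} (h1 : b ∈ Q) (h2 : b ∈ cj g Q) :
    ∃ k, k * b = b * k ∧ k * g ∈ normalizer (Q : Set G) := by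
  have h3 : IsPGroup 2 Q := .of_card (n := 6) hQ.card
  obtain ⟨S, hS, h4⟩ := H92.exists_sylIn_ge (H := centralizer {b})
    (fun q hq => mem_centralizer_singleton_iff.2 (comm_of_sq hQ.sq hq h1)) h3
  obtain ⟨k, h5, h6⟩ := sylIn_exists_cj_le hS (R := cj g Q) (fun q hq =>
    mem_centralizer_singleton_iff.2 (by
      have := comm_of_sq hQ.sq (mem_cj.1 hq) (mem_cj.1 h2)
      simp only [mul_assoc, mul_inv_cancel_left, mul_right_inj] at this
      simpa only [← mul_assoc, mul_left_inj] using this))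
    (isPGroup_cj g h3)
  exact ⟨k, mem_centralizer_singleton_iff.1 h5, weak hk hL hQ hs h hW
    (cj_mul k g Q ▸ h6.trans (le_M hk hL hQ hs h hW hS.pgroup h4))⟩

theorem cent_le (ch : Cfsg.IsCharacteristicTwoType G)
    (sol : ∀ t : G, orderOf t = 2 → Group.IsSolvable (centralizer ({t} : Set G))) {b : G}
    (hb : b ∈ Q) (b1 : b ≠ 1) : centralizer {b} ≤ normalizer (Q : Set G) := by
  have ob : orderOf b = 2 := orderOf_eq_prime ((sq b).trans (hQ.sq b hb)) b1
  have QX : Q ≤ centralizer {b} := fun q hq =>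
    mem_centralizer_singleton_iff.2 (comm_of_sq hQ.sq hq hb)
  have hX : normalizer (zpowers b : Set G) = centralizer {b} := by
    refine le_antisymm (fun g hg => mem_centralizer_singleton_iff.2 (mul_inv_eq_iff_eq_mul.1 ?_))
      (by rw [← centralizer_closure, ← zpowers_eq_closure]; exact centralizer_le_normalizer _)
    obtain ⟨n, hn⟩ := (mem_powers_iff_mem_zpowers).2 (conj_mem_of_mem_norm hg (mem_zpowers b))
    simp only at hn
    rw [← pow_mod_orderOf, ob] at hn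
    rcases Nat.mod_two_eq_zero_or_one n with e | e <;> rw [e] at hn
    · exact (b1 (conj_eq_one_iff.1 (hn.symm.trans (pow_zero b)))).elim
    · exact hn.symm.trans (pow_one b)
  have ch2 := ch.2 (zpowers b) (.of_card (n := 1) (by rw [Nat.card_zpowers, ob, pow_one]))
    (zpowers_ne_bot.2 b1)
  rw [hX] at ch2
  have := sol b ob
  set X := centralizer ({b} : Set G)
  have RM : pCoreOf 2 X ≤ normalizer (Q : Set G) := le_sup_right.trans (le_M hk hL hQ hs h hW
    (isPGroup_sup_of_norm (.of_card (n := 6) hQ.card) (pCoreOf_isPGroup X)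
      (QX.trans (le_norm_pCoreOf X))) le_sup_left)
  suffices Q ≤ pCoreOf 2 X from fun g hg =>
    weak hk hL hQ hs h hW ((cj_le_of_mem_norm (le_norm_pCoreOf X hg) this).trans RM)
  refine fun q hq => by_contra fun hn => ?_
  let q' : X := ⟨q, QX hq⟩
  have qq : q' * q' = 1 := Subtype.ext (hQ.sq q hq)
  obtain ⟨y0, y1, y2, y3⟩ := S0200.result q' (orderOf_eq_prime ((sq _).trans qq) fun e =>
    hn ((show q = 1 from congrArg Subtype.val e) ▸ one_mem _)) fun N h1 h2 h3 =>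
    hn (mem_map_of_mem X.subtype (le_pCore h1 h2 h3))
  obtain ⟨p, hp, hd⟩ := Nat.exists_prime_and_dvd (mt orderOf_eq_one_iff.1 y1)
  obtain ⟨y, oy, e⟩ : ∃ y : X, orderOf y = p ∧ q' * y * q'⁻¹ = y⁻¹ :=
    ⟨_, orderOf_pow_orderOf_div (orderOf_pos _).ne' hd, by rw [← conj_pow, y3, inv_pow]⟩
  have p2 : p ≠ 2 := fun e => by rw [e] at hd; exact y2.not_two_dvd_nat hd
  by_cases p3 : p = 3
  · subst p3
    obtain ⟨k, -, h1⟩ := conj3 h.h9 (mem_top y.1) (mem_top x) ((orderOf_coe y).trans oy) h.hx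
    have h2 : Commute (k * b * k⁻¹) x := by
      have : Commute (k * b * k⁻¹) (k * y * k⁻¹) :=
        Commute.conj (mem_centralizer_singleton_iff.1 y.2).symm k
      rcases zp3 h.hx h1 (by simpa using ne1 oy) with e | e <;> rw [e] at this
      exacts [this, Commute.inv_right_iff.1 this]
    obtain ⟨j, h3, h4⟩ := fuse hk hL hQ hs h hW hb (g := k⁻¹) (mem_cj.2 (by
      rw [inv_inv]; exact hQ.hW (memW h h2 (by rw [conj_mul, hQ.sq b hb]; simp))))
    have h5 := mul_mem (mul_mem h4 hQ.hx) (inv_mem h4)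
    refine sol3 _ rfl (fun h9 => h.h9 (h9.trans (card_subgroup_dvd_card X)))
      ⟨j * k⁻¹ * x * (j * k⁻¹)⁻¹, mem_centralizer_singleton_iff.2 ?_⟩ y q'
      ((orderOf_mk _ _).trans (((MulAut.conj _).orderOf_eq x).trans h.hx)) oy e
      (Subtype.ext ((sq _).trans (hQ.sq _ ?_)))
    · have := h2.symm.conj (j * k⁻¹)
      rwa [show j * k⁻¹ * (k * b * k⁻¹) * (j * k⁻¹)⁻¹ = j * b * j⁻¹ by group, h3,
        mul_inv_cancel_right] at this
    · have := mul_mem (conj_mem_of_mem_norm h5 hq) (inv_mem hq)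
      rwa [mul_assoc, mul_assoc, ← mul_assoc q] at this
  have p7 : 7 ≤ p := by
    have : p ≠ 5 := fun e => h.h5 (e ▸ oy ▸ (orderOf_dvd_natCard y).trans (card_subgroup_dvd_card X))
    by_contra! h7
    interval_cases p <;> first | omega | norm_num at hp
  have yR : y ∉ pCore 2 X := fun h1 => by
    obtain ⟨k, h2⟩ := isPGroup_iff_mem.1 pCore_isPGroup y h1
    exact p2 ((Nat.prime_dvd_prime_iff_eq hp Nat.prime_two).1
      (hp.dvd_of_dvd_pow (oy ▸ orderOf_dvd_of_pow_eq_one h2)))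
  let Φ := (frattini (pCore 2 X)).map (pCore 2 X).subtype
  let π := QuotientGroup.mk' Φ
  have sqΦ : ∀ r ∈ pCore 2 X, π (r * r) = 1 := fun r hr => (QuotientGroup.eq_one_iff _).2
    (sq r ▸ ((H3.map_frattini_le_iff pCore_isPGroup).1 le_rfl).2 r hr)
  have := Fact.mk hp
  have : ((pCore 2 X).map π).Normal := Normal.map inferInstance _ (QuotientGroup.mk'_surjective Φ)
  refine yR (H59.mem_of_frattini pCore_isPGroup ch2 fun r hr => (QuotientGroup.eq_one_iff _).1 ?_)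
  change π _ = 1
  rw [map_mul, map_mul, map_mul, map_inv, map_inv, mul_inv_eq_one]
  refine dih (E := (pCore 2 X).map π) (h := π y) (q := π q') (by rintro _ ⟨r, hr, rfl⟩; exact sqΦ r hr) hp p7
    (orderOf_eq_prime (by rw [← map_pow, ← oy, pow_orderOf_eq_one, map_one]) fun e =>
      yR (map_subtype_le _ ((QuotientGroup.eq_one_iff _).1 e))) (by rw [← map_mul, qq, map_one])
    (by simpa using congrArg π e) ?_ _ (mem_map_of_mem _ hr)
  have h1 := relIndex_mul_relIndex (Q.subgroupOf X ⊓ pCore 2 X)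
    ((centralizer {π q'}).comap π ⊓ pCore 2 X) (pCore 2 X) (inf_le_inf_right _ fun a ha =>
      mem_centralizer_singleton_iff.2 (by
        rw [← map_mul, ← map_mul]; exact congrArg π (Subtype.ext (comm_of_sq hQ.sq ha hq))))
    inf_le_right
  rw [inf_relIndex_right, inf_relIndex_right, subgroupOf, relIndex_comap, relIndex_comap] at h1
  have h2 := Nat.le_of_dvd (by decide) (rel8 hk hL RM
    ((isPGroup_subgroupOf (pCoreOf_isPGroup X)).map φ))
  by_cases h3 : (Q.comap X.subtype ⊓ pCore 2 X).relIndex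
      ((centralizer {π q'}).comap π ⊓ pCore 2 X) = 1
  · rw [h3, one_mul] at h1
    refine h1 ▸ Nat.le_of_dvd (by decide) (card_elem hk hL RM ?_).1
    rintro _ ⟨r, hr, rfl⟩
    exact (relIndex_eq_one.1 h3 ⟨mem_centralizer_singleton_iff.2 (by
      rw [sqΦ r hr, one_mul, mul_one]), mul_mem hr hr⟩).1
  · have h4 : (Q.comap X.subtype ⊓ pCore 2 X).relIndex
      ((centralizer {π q'}).comap π ⊓ pCore 2 X) ≠ 0 := index_ne_zero_of_finite
    rw [pCoreOf, ← h1] at h2
    nlinarith [Nat.two_le_iff _ |>.2 ⟨h4, h3⟩]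

end E6

theorem Ctx.e64 (h : Ctx x s W) (hW : Nat.card W = 4) (ch : Cfsg.IsCharacteristicTwoType G)
    (sol : ∀ t : G, orderOf t = 2 → Group.IsSolvable (centralizer ({t} : Set G)))
    {Q : Subgroup G} (hQ : E64 x s W Q) : False := by
  have : Fact (Nat.Prime 7) := ⟨by decide⟩
  have := Matrix.ProjectiveSpecialLinearGroup.rank_two_simple (F := ZMod 7) (by simp)
  have hL : Nat.card L7 = 168 := by
    have := H9.gcd_mul_card_psl_two (F := ZMod 7)
    rw [ZMod.card, show Nat.gcd 2 (7 - 1) = 2 by norm_num] at this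
    unfold L7
    omega
  obtain ⟨φ, hs, hk⟩ := hQ.quo
  obtain ⟨u, hu, u1⟩ := W.bot_or_exists_ne_one.resolve_left fun e => by simp [e] at hW
  obtain ⟨w, hw, hc⟩ := h.f2 u (orderOf_eq_prime ((pow_two u).trans (h.sq u hu)) u1)
  obtain ⟨c, rfl⟩ := isConj_iff.1 hc
  have h1 : s * w ∉ Q := fun h1 => by
    have h2 := (Q.mul_mem_cancel_right (hQ.hW hw)).1 h1
    have := hQ.sq _ (mul_mem h2 (conj_mem_of_mem_norm hQ.hx (inv_mem h2)))
    rw [← mul_assoc s, ← mul_assoc s, h.inv, ← pow_two, ← pow_two, ← pow_mul,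
      ← orderOf_dvd_iff_pow_eq_one, orderOf_inv, h.hx] at this
    omega
  have h2 := hQ.h16 _ (mul_mem hQ.hs (le_normalizer (hQ.hW hw))) h1
    (conj_eq_one_iff.1 ((conj_mul ..).symm.trans (h.sq _ hu)) ▸ Q.one_mem)
  have sq' : ∀ a ∈ cj c Q, a * a = 1 := fun a ha => by
    simpa [mul_assoc, inv_mul_eq_one] using congrArg (fun a => c * a * c⁻¹) (hQ.sq _ (mem_cj.1 ha))
  have h3 := (card_elem hk hL (A := cj c (Q ⊓ centralizer {s * w})) (le_trans (cj_le_iff.2
    fun a ha => mem_centralizer_singleton_iff.2 (Commute.conj (mem_centralizer_singleton_iff.1 ha.2)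
      c)) (cent_le hk hL hQ hs h hW ch sol (hQ.hW hu) u1))
    fun a ha => sq' a (cj_mono c inf_le_left ha) ▸ Q.one_mem).1
  obtain ⟨e, he, e1⟩ := (Q ⊓ cj c (Q ⊓ centralizer {s * w})).bot_or_exists_ne_one.resolve_left
    fun e => by
    have := H2.card_inf_mul_relIndex Q (cj c (Q ⊓ centralizer {s * w}))
    rw [e, card_bot, one_mul, card_cj, h2] at this
    exact absurd (this ▸ h3) (by decide)
  have h4 := weak hk hL hQ hs h hW (g := c) (le_trans (fun a ha => mem_centralizer_singleton_iff.2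
    (comm_of_sq sq' ha (cj_mono c inf_le_left he.2))) (cent_le hk hL hQ hs h hW ch sol he.1 e1))
  exact h1 (by simpa [mul_assoc] using conj_mem_of_mem_norm' h4 (hQ.hW hu))

end Cfsg.Agent.CV
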