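import Cfsg.Agent.CV.LocA0
import Cfsg.Agent.SC6.AF
import Cfsg.Agent.H62.Misc
import Cfsg.Agent.H2.MinNormal
import Cfsg.Agent.H8.Dihedral
import Cfsg.Agent.H23.Comm

/-! The kernel is a 2-group; splitting of central extensions (see notes/CV.md). -/

set_option autoImplicit false

namespace Cfsg.Agent.CV

open Subgroup
open scoped commutatorElement

theorem comm_of_inv {G : Type*} [Group G] {a b : G} (ha : a * a = 1) (hb : b * b = 1)
    (h : a * b * (a * b) = 1) : Commute a b := by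
  have := inv_eq_of_mul_eq_one_right h
  rw [mul_inv_rev, inv_eq_of_mul_eq_one_right ha, inv_eq_of_mul_eq_one_right hb] at this
  exact this.symm

theorem comm_of_three {G : Type*} [Group G] {a y u : G} (ha : a * a = 1) (hu : u * u = 1)
    (hc : Commute u (y⁻¹ * a * y)) (e : a * (y * a * y⁻¹) * (y⁻¹ * a * y) = u) :
    Commute a (y * a * y⁻¹) := by
  have c2 : y⁻¹ * a * y * (y⁻¹ * a * y) = 1 := by rw [← inv_inv y, inv_inv y⁻¹, conj_mul, ha]; group
  have e' : a * (y * a * y⁻¹) = u * (y⁻¹ * a * y) := by rw [← e, mul_assoc _ (y⁻¹ * a * y), c2, mul_one]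
  exact comm_of_inv ha (by rw [conj_mul, ha]; group)
    (by rw [e', ← hc.mul_mul_mul_comm, hu, c2, mul_one])

section
variable {A : Type*} [CommGroup A] {ξ : MulAut A}

theorem lemK (h2 : ∀ n : A, n * n = 1 → n = 1) (h3 : ∀ n, n * ξ n * ξ⁻¹ n = 1) (a : MulAut A) (n : A)
    (e0 : a n = n) (e1 : (ξ * a * ξ⁻¹) n = n⁻¹) (e2 : (ξ⁻¹ * a * ξ) n = n⁻¹) : n = 1 := by
  have f1 : a (ξ⁻¹ n) = (ξ⁻¹ n)⁻¹ := by rw [← map_inv, ← e1]; simp
  have f2 : a (ξ n) = (ξ n)⁻¹ := by rw [← map_inv, ← e2]; simp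
  have h := congrArg a (h3 n)
  rw [map_mul, map_mul, e0, f1, f2, map_one, mul_assoc, ← mul_inv, mul_inv_eq_one] at h
  exact h2 n ((congrArg (n * ·) h).trans ((mul_assoc _ _ _).symm.trans (h3 n)))

theorem lemAb (h2 : ∀ n : A, n * n = 1 → n = 1) (hξ : ξ * ξ = ξ⁻¹) (fpf : ∀ n, ξ n = n → n = 1)
    {a : MulAut A} (a2 : a * a = 1) (hc : Commute a (ξ * a * ξ⁻¹)) : ξ * a * ξ⁻¹ = a := by
  have h3 : ∀ n, n * ξ n * ξ⁻¹ n = 1 := fun n => fpf _ (by
    rw [map_mul, map_mul, ← MulAut.mul_apply _ ξ ξ, hξ, ← MulAut.mul_apply _ ξ ξ⁻¹, mul_inv_cancel,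
      MulAut.one_apply, mul_comm _ n, mul_assoc])
  have hξ' : ξ⁻¹ * ξ⁻¹ = ξ := by rw [← mul_inv_rev, hξ, inv_inv]
  obtain ⟨b, hb⟩ : ∃ b, b = ξ * a * ξ⁻¹ := ⟨_, rfl⟩
  obtain ⟨c, hc'⟩ : ∃ c, c = ξ⁻¹ * a * ξ := ⟨_, rfl⟩
  have e1 : ξ * b * ξ⁻¹ = c := by
    calc _ = ξ * ξ * a * (ξ⁻¹ * ξ⁻¹) := by rw [hb]; simp only [mul_assoc]
      _ = c := by rw [hξ, hξ', hc']
  have e2 : ξ * c * ξ⁻¹ = a := by rw [hc']; group
  have b2 : b * b = 1 := by rw [hb, conj_mul, a2]; group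
  rw [← hb] at hc ⊢
  have c1 : Commute b c := by
    have := hc.map (MulAut.conj ξ); rwa [MulAut.conj_apply, MulAut.conj_apply, ← hb, e1] at this
  have c2 : Commute c a := by
    have := c1.map (MulAut.conj ξ); rwa [MulAut.conj_apply, MulAut.conj_apply, e1, e2] at this
  have k1 : ξ * (a * b) * ξ⁻¹ = b * c := by rw [← conj_mul, ← hb, e1]
  have k2 : ξ * (b * c) * ξ⁻¹ = c * a := by rw [← conj_mul, e1, e2]
  have k3 : ξ * (c * a) * ξ⁻¹ = a * b := by rw [← conj_mul, ← hb, e2]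
  have c3 : c * c = 1 := by rw [← e1, conj_mul, b2]; group
  have s1 : a * b * (a * b) = 1 := by rw [← hc.mul_mul_mul_comm, a2, b2, mul_one]
  have s2 : b * c * (b * c) = 1 := by rw [← c1.mul_mul_mul_comm, b2, c3, mul_one]
  have p1 : a * b * (b * c) = c * a := by rw [mul_assoc, ← mul_assoc b, b2, one_mul, c2.eq]
  have p2 : Commute (a * b) (b * c) :=
    (hc.mul_right c2.symm).mul_left ((Commute.refl b).mul_right c1)
  suffices H : a * b = 1 from (eq_inv_of_mul_eq_one_right H).trans (inv_eq_of_mul_eq_one_right a2)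
  generalize a * b = α, b * c = β, c * a = γ at *
  ext m
  obtain ⟨r, hr⟩ : ∃ r, r = m * (α m)⁻¹ := ⟨_, rfl⟩
  have r1 : α r = r⁻¹ := by
    rw [hr, map_mul, map_inv, ← MulAut.mul_apply, s1, MulAut.one_apply, mul_inv_rev, inv_inv]
  have r2 : α (r * β r) = (r * β r)⁻¹ := by
    rw [map_mul, ← MulAut.mul_apply, p2.eq, MulAut.mul_apply, r1, map_inv, mul_inv]
  have r3 : β (r * β r) = r * β r := by
    rw [map_mul, ← MulAut.mul_apply, s2, MulAut.one_apply, mul_comm]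
  have r4 : β r = r⁻¹ := eq_inv_of_mul_eq_one_right (lemK h2 h3 β _ r3
    (by rw [k2, ← p1, MulAut.mul_apply, r3, r2]) (by rw [← r2, ← k1]; simp))
  have r5 := lemK h2 h3 γ r (by rw [← p1, MulAut.mul_apply, r4, map_inv, r1, inv_inv])
    (by rw [k3, r1]) (by rw [← r4, ← k2]; simp)
  rw [r5, eq_comm, mul_inv_eq_one] at hr
  exact hr.symm

theorem lemT [Finite A] (h2 : ∀ n : A, n * n = 1 → n = 1) (hξ : orderOf ξ = 3)
    (fpf : ∀ n, ξ n = n → n = 1) {T : Subgroup (MulAut A)} (two : IsPGroup 2 T)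
    (hn : ξ ∈ normalizer (T : Set (MulAut A)))
    (hF : ∀ t ∈ T, ∀ u ∈ T, Commute t ξ → Commute u ξ → t ≠ 1 → u ≠ 1 → t = u)
    {a : MulAut A} (ha : a ∈ T) (a2 : a * a = 1) : ξ * a * ξ⁻¹ = a := by
  have hξ' : ξ * ξ = ξ⁻¹ := eq_inv_of_mul_eq_one_left (by
    rw [← pow_two, ← pow_succ]; exact orderOf_dvd_iff_pow_eq_one.1 hξ.dvd)
  by_cases a1 : a = 1
  · rw [a1]; group
  have h0 := H49.center_ne_bot_of_nilpotent two.isNilpotent (H49.ne_bot_iff_exists.2 ⟨a, ha, a1⟩)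
  obtain ⟨n, n0, hn0⟩ := two.to_inf_left.nontrivial_iff_card.1 ((nontrivial_iff_ne_bot _).2 h0)
  obtain ⟨⟨z, hz, hz'⟩, oz⟩ := exists_prime_orderOf_dvd_card' 2 (hn0 ▸ dvd_pow_self 2 n0.ne')
  replace oz : orderOf z = 2 := (orderOf_coe _).trans oz
  have zz : z * z = 1 := by rw [← pow_two, ← oz, pow_orderOf_eq_one]
  have zx : z * ξ = ξ * z := (mul_inv_eq_iff_eq_mul.1
    (lemAb h2 hξ' fpf zz (hz' _ ((mem_normalizer_iff.1 hn z).1 hz)).symm)).symm
  have F : SC6.AF z ξ T := ⟨two, oz, hξ, hz, fun t ht => H49.mem_cent1.2 (hz' t ht), hn, zx,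
    fun t ht c => or_iff_not_imp_left.2 fun t1 => hF t ht z hz c zx t1 (by rintro rfl; simp at oz)⟩
  obtain ⟨k, hk⟩ := F.prod ha
  exact lemAb h2 hξ' fpf a2 (comm_of_three a2 (by rw [← (Commute.refl z).mul_zpow, zz, one_zpow])
    (Commute.zpow_left (hz' _ (F.conj_mem' ha)).symm k) hk.symm)

end

variable {M L : Type*} [Group M] [Finite M] [Group L] {π : M →* L} {x s : M} {p : ℕ}

theorem Loc.c1 (h : Loc π x s) (T : Tg L p) {N : Subgroup M} (hN : N.Normal)
    (two : IsPGroup 2 N) (h1 : N ≠ ⊥) : N ⊓ centralizer ({x} : Set M) ≠ ⊥ := by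
  intro h0
  obtain ⟨P, y, oy, hP, hx, -, g, hg, e⟩ := h.exists_P T
  have W := h.wie T hP hx hN two
  have h2 : N ⊓ centralizer ((P ⊔ zpowers x : Subgroup M) : Set M) = ⊥ := eq_bot_iff.2 (h0 ▸
    inf_le_inf_left _ (H49.cent_le_cent1 (mem_sup_right (mem_zpowers x))))
  rw [h0, h2, card_bot, one_pow, one_mul, one_mul] at W
  have h3 := H49.cent_symm (inf_eq_left.1 (eq_of_le_of_card_ge inf_le_left W.le))
  rcases h.normal T (D := centralizer (N : Set M)) inferInstance with h4 | h4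
  · have := T.prime.one_lt
    rw [← oy, ← e, MonoidHom.mem_ker.1 (h4 (h3 hg)), orderOf_one] at this
    omega
  · exact h1 (h0 ▸ (inf_eq_left.2 (H49.le_cent1_iff.2 h4)).symm)

theorem Loc.two1 (h : Loc π x s) (T : Tg L p) (hc : Nat.card (centralizer ({x} : Set M)) ≤ 6)
    (hQ : Cfsg.pCore 2 M = ⊥) : π.ker = ⊥ := by
  by_contra h0
  obtain ⟨N, q, hq, hN, hne, hle, hcm, hp, hexp, -⟩ :=
    H2.exists_minimal_normal_le_of_solvable π.ker inferInstance h.solv h0
  have q2 : q ≠ 2 := by rintro rfl; exact hne (eq_bot_iff.2 (hQ ▸ H44.le_pCore hN hp))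
  obtain ⟨n0, hn0, n1⟩ := H49.ne_bot_iff_exists.1 hne
  have q3 : q ≠ 3 := by
    rintro rfl
    exact h.cop (orderOf_eq_prime (hp := ⟨hq⟩) (hexp _ hn0) n1 ▸ π.ker.orderOf_dvd_natCard (hle hn0))
  have k6 : ∀ n ∈ N, n ^ 6 = 1 → n = 1 := fun n hn e => by
    have h2 : q.Coprime (2 * 3) := Nat.Coprime.mul_right
      ((Nat.coprime_primes hq Nat.prime_two).2 q2) ((Nat.coprime_primes hq Nat.prime_three).2 q3)
    exact ((pow_gcd_eq_one.2 ⟨hexp n hn, e⟩).symm.trans (by rw [show q.gcd 6 = 1 from h2, pow_one])).symm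
  let _ : CommGroup N := { (inferInstance : Group N) with mul_comm := hcm.1.1 }
  let ρ : M →* MulAut N := MulAut.conjNormal
  have fpf : ∀ n : N, ρ x n = n → n = 1 := fun n e => Subtype.ext (k6 n n.2 (h.six _
    (mul_inv_eq_iff_eq_mul.1 (congrArg Subtype.val e)).symm))
  have hk : ρ.ker ≤ π.ker := (h.normal T inferInstance).resolve_right fun e =>
    n1 (congrArg Subtype.val (fpf ⟨n0, hn0⟩ (by rw [MonoidHom.mem_ker.1 e]; rfl)))
  obtain ⟨a, oa, ha⟩ := T.four _ h.opx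
  have a2 := H8.mul_self_of_orderOf_two oa
  have hab := comm_of_three a2 (mul_one 1) (Commute.one_left _) ha
  have := Finite.of_surjective π h.surj
  have m1 : a ∈ closure {a, π x * a * (π x)⁻¹} := subset_closure (by simp)
  have m2 : π x * a * (π x)⁻¹ ∈ closure {a, π x * a * (π x)⁻¹} := subset_closure (by simp)
  have xx : π x * π x = (π x)⁻¹ := by rw [← map_mul, h.xx, map_inv]
  have e3 : π x * (π x * a * (π x)⁻¹) * (π x)⁻¹ = (π x)⁻¹ * a * π x := by
    calc _ = π x * π x * a * (π x * π x)⁻¹ := by group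
      _ = _ := by rw [xx, inv_inv]
  obtain ⟨S, hS, hx, -, -, hc'⟩ := h.syl Nat.prime_two (by norm_num)
    (H8.isPGroup_closure_pair_of_commute a2 (by rw [conj_mul, a2]; group) hab)
    (H49.mem_norm_of_cj_le (map_le_iff_le_comap.2 ((closure_le _).2 (by
      rintro _ (rfl | rfl)
      · exact m2
      · show π x * _ * _ ∈ Subgroup.closure _
        rw [e3, eq_inv_of_mul_eq_one_right ha]
        exact inv_mem (mul_mem m1 m2)))))
  obtain ⟨l, hl⟩ := isConj_iff.1 (T.conj2 _ _ h.ops oa)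
  obtain ⟨m, rfl⟩ := h.surj l
  rw [← map_inv, ← map_mul, ← map_mul] at hl
  obtain ⟨b, hb, hs⟩ := hc' (m * s * m⁻¹) (by rw [mem_comap, hl]; exact m1)
    (by rw [conj_pow, pow_two, h.ss]; group)
  have e1 : π (b * (m * s * m⁻¹) * b⁻¹) = a := by
    rw [map_mul, map_mul, hl, map_inv, mul_inv_eq_iff_eq_mul]
    refine (closure_le (centralizer {a})).2 ?_ hb a rfl |>.symm
    rintro _ (rfl | rfl) _ rfl
    exacts [rfl, hab]
  have e2 : b * (m * s * m⁻¹) * b⁻¹ * (b * (m * s * m⁻¹) * b⁻¹) = 1 := by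
    rw [conj_mul, conj_mul, h.ss]; group
  generalize b * (m * s * m⁻¹) * b⁻¹ = t at hs e1 e2
  have c2 : Nat.card ↥(S ⊓ centralizer ({x} : Set M)) ≤ 2 := by
    obtain ⟨k, hk⟩ := IsPGroup.iff_card.1 (hS.to_inf_left (K := centralizer ({x} : Set M)))
    have := Nat.le_of_dvd Nat.card_pos (Nat.Coprime.mul_dvd_of_dvd_of_dvd
      (hk ▸ Nat.Coprime.pow_left k (by norm_num)) (card_dvd_of_le inf_le_right)
      (h.hx ▸ (centralizer ({x} : Set M)).orderOf_dvd_natCard (H49.self_mem_cent1 x)))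
    omega
  have key := lemT (ξ := ρ x) (fun n e => Subtype.ext (k6 n n.2 (by
      rw [show 6 = 2 * 3 from rfl, pow_mul, pow_two, show (n : M) * n = 1 from congrArg Subtype.val e,
        one_pow])))
    (orderOf_eq_prime (hp := ⟨Nat.prime_three⟩) (by rw [← map_pow, h.x3, map_one])
      fun e => h.x_ker (hk e)) fpf (hS.map ρ) (le_normalizer_map ρ ⟨x, hx, rfl⟩) ?_
    (mem_map_of_mem ρ hs) (by rw [← map_mul, e2, map_one])
  · have e4 : π x * a * (π x)⁻¹ = a := by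
      have := hk (show x * t * x⁻¹ * t⁻¹ ∈ ρ.ker by
        simp only [MonoidHom.mem_ker, map_mul, map_inv, key, mul_inv_cancel])
      simpa only [MonoidHom.mem_ker, map_mul, map_inv, e1, mul_inv_eq_one] using this
    rw [← e3, e4, e4, a2, one_mul] at ha
    rw [ha, orderOf_one] at oa
    omega
  · rintro _ ⟨g, hg, rfl⟩ _ ⟨g', hg', rfl⟩ d d' f f'
    obtain ⟨u, u1, u2, u3⟩ := h.lift ρ hx (h.not3 hk S) hg d
    obtain ⟨v, v1, v2, v3⟩ := h.lift ρ hx (h.not3 hk S) hg' d'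
    let U : ↥(S ⊓ centralizer ({x} : Set M)) := ⟨u, u1, H49.mem_cent1.2 u2⟩
    let V : ↥(S ⊓ centralizer ({x} : Set M)) := ⟨v, v1, H49.mem_cent1.2 v2⟩
    have U1 : U ≠ 1 := fun e => f (by rw [← u3, show u = 1 from congrArg Subtype.val e, map_one])
    have V1 : V ≠ 1 := fun e => f' (by rw [← v3, show v = 1 from congrArg Subtype.val e, map_one])
    have := Finite.one_lt_card_iff_nontrivial.2 ⟨U, 1, U1⟩
    have := ((Nat.card_eq_two_iff' 1).1 (le_antisymm c2 this)).unique U1 V1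
    rw [← u3, ← v3, show u = v from congrArg Subtype.val this]

theorem Loc.two (h : Loc π x s) (T : Tg L p) (hc : Nat.card (centralizer ({x} : Set M)) ≤ 12)
    (hQ : Cfsg.pCore 2 M ≠ ⊥) : IsPGroup 2 π.ker := by
  have two : IsPGroup 2 (pCore 2 M) := H44.pCore_isPGroup
  have hle := h.le_ker T inferInstance two
  have h1 := h.card_quo hle le_top (by rw [normalizer_eq_top]; trivial)
  rw [top_inf_eq, Subgroup.map_top_of_surjective _ (QuotientGroup.mk'_surjective _), top_inf_eq] at h1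
  have h2 := Finite.one_lt_card_iff_nontrivial.2
    ((nontrivial_iff_ne_bot _).2 (h.c1 T inferInstance two hQ))
  have h3 := (h.quo _ hle).two1 T (by nlinarith) (by
    have e := H44.le_pCore (N := (pCore 2 (M ⧸ pCore 2 M)).comap (QuotientGroup.mk' _)) inferInstance
      (H44.pCore_isPGroup.comap_of_ker_isPGroup _ (by rwa [QuotientGroup.ker_mk']))
    rw [← map_comap_eq_self_of_surjective (QuotientGroup.mk'_surjective _) (pCore 2 _),
      Subgroup.map_eq_bot_iff, QuotientGroup.ker_mk']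
    exact e)
  rw [Loc.ker_quo, Subgroup.map_eq_bot_iff, QuotientGroup.ker_mk'] at h3
  exact two.to_le h3

theorem Loc.split (h : Loc π x s) (T : Tg L p) (cen : π.ker ≤ center M)
    (sq : ∀ q ∈ π.ker, q * q = 1) :
    ∃ K : Subgroup M, K.Normal ∧ K ⊓ π.ker = ⊥ ∧ K ⊔ π.ker = ⊤ := by
  have cz : ∀ z ∈ π.ker, ∀ g, g * z = z * g := fun z hz => mem_center_iff.1 (cen hz)
  have k : ∀ g, orderOf (π g) = 2 → g * g = 1 := fun g hg => by
    obtain ⟨l, hl⟩ := isConj_iff.1 (T.conj2 _ _ h.ops hg)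
    obtain ⟨m, rfl⟩ := h.surj l
    have hz : (m * s * m⁻¹)⁻¹ * g ∈ π.ker := by
      simp only [MonoidHom.mem_ker, map_mul, map_inv, hl, inv_mul_cancel]
    have e : g = m * s * m⁻¹ * ((m * s * m⁻¹)⁻¹ * g) := by group
    rw [e, ← Commute.mul_mul_mul_comm (cz _ hz _), sq _ hz, conj_mul, h.ss]; group
  have k' : ∀ g, π (g * g) = 1 → g * g = 1 := fun g hg => by
    by_cases e : π g = 1
    exacts [sq g e, k g (orderOf_eq_prime (by rw [pow_two, ← map_mul, hg]) e)]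
  obtain ⟨a, b, oa, ob, hab, hi⟩ := T.dih
  obtain ⟨a, rfl⟩ := h.surj a
  obtain ⟨b, rfl⟩ := h.surj b
  have a2 := k a oa
  have b2 := k b ob
  have ia := inv_eq_of_mul_eq_one_right a2
  have ib := inv_eq_of_mul_eq_one_right b2
  obtain ⟨c, hc⟩ : ∃ c, c = a * b * (a * b) := ⟨_, rfl⟩
  have c2 : c * c = 1 := k' c (by rw [← hab, hc]; simp only [map_mul, pow_succ, pow_zero, one_mul, mul_assoc])
  have ic := inv_eq_of_mul_eq_one_right c2
  have c0 : ∀ z ∈ zpowers c, z ∈ π.ker → z = 1 := by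
    rintro _ ⟨n, rfl⟩ hz
    rcases Int.even_or_odd' n with ⟨m, rfl | rfl⟩
    · simp only [zpow_mul, zpow_two, c2, one_zpow]
    · simp only [zpow_add, zpow_mul, zpow_two, c2, one_zpow, one_mul, zpow_one] at hz ⊢
      exact hc ▸ k' _ (hc ▸ hz)
  have ca : Commute a c := by
    show a * c = c * a
    nth_rewrite 1 [← ic]
    rw [hc]; simp only [mul_inv_rev, ia, ib, mul_assoc]
  have cb : Commute b c := by
    show b * c = c * b
    nth_rewrite 2 [← ic]
    rw [hc]; simp only [mul_inv_rev, ia, ib, mul_assoc]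
  have hD : closure ({a, b} ∪ π.ker : Set M) ≤ normalizer (zpowers c : Set M) := by
    refine le_trans ((closure_le _).2 ?_) (H49.cent_zpowers c ▸ H49.cent_le_norm (zpowers c))
    rintro g ((rfl | rfl) | hg)
    exacts [H49.mem_cent1.2 ca, H49.mem_cent1.2 cb, H49.mem_cent1.2 (cz g hg c).symm]
  have hder := H23.commutator_closure_le hD hD (by
    have o : ∀ g g' : M, g * g' = g' * g → ⁅g, g'⁆ ∈ zpowers c := fun g g' e =>
      (commutatorElement_eq_one_iff_mul_comm.2 e) ▸ one_mem _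
    have o2 : ⁅a, b⁆ ∈ zpowers c := by
      rw [commutatorElement_def, ia, ib, mul_assoc (a * b), ← hc]; exact mem_zpowers c
    rintro g (hg | hg) g' (hg' | hg')
    · rcases hg with rfl | rfl <;> rcases hg' with rfl | rfl
      exacts [o _ _ rfl, o2, by rw [← commutatorElement_inv]; exact inv_mem o2, o _ _ rfl]
    exacts [o _ _ (cz _ hg' _), o _ _ (cz _ hg _).symm, o _ _ (cz _ hg' _)])
  have hI : ¬ 2 ∣ (closure ({a, b} ∪ π.ker : Set M)).index := by
    rw [Subgroup.closure_union, closure_eq, ← comap_map_eq, index_comap_of_surjective _ h.surj,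
      MonoidHom.map_closure, Set.image_pair]
    exact hi.not_two_dvd_nat
  generalize closure ({a, b} ∪ π.ker : Set M) = D at hder hI
  obtain ⟨P⟩ : Nonempty (Sylow 2 D) := inferInstance
  let S := (P.2.map D.subtype).toSylow (by
    rw [index_map_subtype, Nat.prime_two.dvd_mul]
    exact fun e => e.elim P.not_dvd_index hI)
  have hS : (S : Subgroup M) ≤ D := map_subtype_le _
  have hz : π.ker ≤ S := IsPGroup.le_sylow_of_normal
    (H2.isPGroup_of_forall_pow_eq_one fun q hq => by rw [pow_two, sq q hq]) S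
  refine ⟨_root_.commutator M, inferInstance, eq_bot_iff.2 fun z hz' => c0 z (hder (commutator_mono hS hS
    (H62.mem_der_of_central S (cen hz'.2) (hz hz'.2) hz'.1))) hz'.2, ?_⟩
  have := T.simple
  rw [← comap_map_eq]
  rcases ((inferInstance : (_root_.commutator M).Normal).map π h.surj).eq_bot_or_eq_top with e | e
  · have e1 := (Subgroup.map_eq_bot_iff _).1 e (commutator_mem_commutator (mem_top x) (mem_top s))
    have e2 : ⁅x, s⁆ = x⁻¹ := by
      rw [← h.xx, commutatorElement_def, mul_assoc, mul_assoc, ← mul_assoc s, ← conj_inv, h.inv, inv_inv]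
    exact absurd (inv_mem_iff.1 (e2 ▸ e1)) h.x_ker
  · rw [e, comap_top]

end Cfsg.Agent.CV
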