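import Cfsg.Agent.CV.Defs
import Cfsg.Agent.H5.Wielandt
import Cfsg.Agent.H1.InvSylow
import Cfsg.Agent.H49.Prod

/-! Normal subgroups, invariant Sylow subgroups and Wielandt's formula for `Loc`. -/

set_option autoImplicit false

namespace Cfsg.Agent.CV

open Subgroup

variable {M L : Type*} [Group M] [Finite M] [Group L] {π : M →* L} {x s : M} {p : ℕ}

theorem card_comap_surj (hs : Function.Surjective π) (V : Subgroup L) :
    Nat.card (V.comap π) = Nat.card π.ker * Nat.card V := by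
  have := Finite.of_surjective π hs
  have h1 := (V.comap π).card_mul_index
  have h2 := π.ker.card_mul_index
  rw [index_ker, MonoidHom.range_eq_top.2 hs, card_top, ← V.card_mul_index, ← h1,
    index_comap_of_surjective _ hs, ← mul_assoc] at h2
  exact (Nat.eq_of_mul_eq_mul_right (Nat.pos_of_ne_zero index_ne_zero_of_finite) h2).symm

theorem Tg.prime (T : Tg L p) : p.Prime := by rcases T.pp with rfl | rfl <;> norm_num

namespace Loc

omit [Finite M] in
theorem x3 (h : Loc π x s) : x ^ 3 = 1 := h.hx ▸ pow_orderOf_eq_one x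

omit [Finite M] in
theorem xx (h : Loc π x s) : x * x = x⁻¹ :=
  eq_inv_of_mul_eq_one_left (by rw [← h.x3, pow_succ, pow_two])

omit [Finite M] in
theorem ss (h : Loc π x s) : s * s = 1 := by rw [← pow_two, ← h.hs, pow_orderOf_eq_one]

omit [Finite M] in
theorem x_ker (h : Loc π x s) : x ∉ π.ker := fun hx => h.cop (h.hx ▸ π.ker.orderOf_dvd_natCard hx)

omit [Finite M] in
theorem opx (h : Loc π x s) : orderOf (π x) = 3 :=
  orderOf_eq_prime (hp := ⟨Nat.prime_three⟩) (by rw [← map_pow, h.x3, map_one]) h.x_ker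

omit [Finite M] in
theorem ops (h : Loc π x s) : orderOf (π s) = 2 := by
  refine orderOf_eq_prime (by rw [pow_two, ← map_mul, h.ss, map_one]) fun e => h.x_ker ?_
  have := congrArg π h.inv
  rw [← h.xx, map_mul, map_mul, map_inv, e, one_mul, inv_one, mul_one, map_mul] at this
  exact left_eq_mul.1 this

omit [Finite M] in
theorem card_zp (h : Loc π x s) : Nat.card (zpowers x) = 3 := (Nat.card_zpowers x).trans h.hx

omit [Finite M] in
theorem comm_of_zp (h : Loc π x s) {e g : M} (he : e ∈ zpowers x) (h1 : e ≠ 1) (hc : Commute g e) :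
    Commute g x := by
  have : zpowers e = zpowers x := ((H49.eq_bot_or_eq_of_prime_card (h.card_zp ▸ Nat.prime_three)
    (zpowers_le.2 he)).resolve_left (by simpa using h1))
  obtain ⟨n, hn⟩ := this.ge (mem_zpowers x)
  exact hn ▸ hc.zpow_right n

theorem normal (h : Loc π x s) (T : Tg L p) {D : Subgroup M} (hD : D.Normal) : D ≤ π.ker ∨ x ∈ D := by
  have := T.simple
  refine (hD.map π h.surj).eq_bot_or_eq_top.imp (Subgroup.map_eq_bot_iff _).1 fun e => ?_
  have h1 : 3 ∣ Nat.card D := T.h3.trans (by rw [← card_top, ← e]; exact card_map_dvd D π)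
  have h2 : ¬ 3 ∣ D.index := fun h2 => by
    have h3 := mul_dvd_mul h1 h2
    have h4 := card_comap_surj h.surj ⊤
    rw [comap_top, card_top, card_top] at h4
    rw [D.card_mul_index, h4] at h3
    exact T.h9 (Nat.Coprime.dvd_of_dvd_mul_left (Nat.Coprime.pow_left 2
      ((Nat.Prime.coprime_iff_not_dvd Nat.prime_three).2 h.cop)) h3)
  have h3 : (orderOf x).Coprime D.index := h.hx ▸ (Nat.Prime.coprime_iff_not_dvd Nat.prime_three).2 h2
  obtain ⟨m, hm⟩ := exists_pow_eq_self_of_coprime h3.symm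
  exact hm ▸ pow_mem (D.pow_index_mem x) m

theorem le_ker (h : Loc π x s) (T : Tg L p) {D : Subgroup M} (hD : D.Normal) (two : IsPGroup 2 D) :
    D ≤ π.ker := by
  refine (h.normal T hD).resolve_right fun hx => ?_
  obtain ⟨n, hn⟩ := IsPGroup.iff_card.1 two
  have := D.orderOf_dvd_natCard hx
  rw [h.hx, hn] at this
  exact absurd (Nat.prime_three.dvd_of_dvd_pow this) (by norm_num)

theorem syl (h : Loc π x s) {V : Subgroup L} {q : ℕ} (hq : q.Prime) (q3 : q ≠ 3) (hV : IsPGroup q V)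
    (hx : π x ∈ normalizer (V : Set L)) : ∃ P : Subgroup M, IsPGroup q P ∧
      x ∈ normalizer (P : Set M) ∧ P ≤ V.comap π ∧ (∀ v ∈ V, ∃ g ∈ P, π g = v) ∧
      ∀ g ∈ V.comap π, g ^ q = 1 → ∃ b ∈ V.comap π, b * g * b⁻¹ ∈ P := by
  have := Fact.mk hq
  have := Finite.of_surjective π h.surj
  have h1 : ¬ 3 ∣ Nat.card (V.comap π) := by
    obtain ⟨n, hn⟩ := IsPGroup.iff_card.1 hV
    rw [card_comap_surj h.surj, Nat.prime_three.dvd_mul, hn]
    exact fun e => e.elim h.cop fun e =>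
      q3 ((Nat.prime_dvd_prime_iff_eq Nat.prime_three hq).1 (Nat.prime_three.dvd_of_dvd_pow e)).symm
  obtain ⟨P, hP⟩ := H1.invariant_sylow_exists (zpowers x) (V.comap π)
    (zpowers_le.2 (le_normalizer_comap π hx))
    (h.card_zp ▸ (Nat.Prime.coprime_iff_not_dvd Nat.prime_three).2 h1) (Or.inl inferInstance) q
  refine ⟨_, P.2.map _, hP (mem_zpowers x), map_subtype_le _, fun v hv => ?_, fun g hg e => ?_⟩
  · have hs := π.subgroupComap_surjective_of_surjective V h.surj
    have e := ((P.mapSurjective hs).is_maximal' (hV.to_subgroup ⊤) le_top).le (mem_top ⟨v, hv⟩)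
    obtain ⟨g, hg, e⟩ := e
    exact ⟨g, ⟨g, hg, rfl⟩, congrArg Subtype.val e⟩
  · have h2 : IsPGroup q (zpowers (⟨g, hg⟩ : V.comap π)) := by
      rintro ⟨_, n, rfl⟩
      refine ⟨1, Subtype.ext (Subtype.ext ?_)⟩
      show (g ^ n) ^ q ^ 1 = 1
      rw [pow_one, ← zpow_natCast, ← zpow_mul, mul_comm, zpow_mul, zpow_natCast, e, one_zpow]
    obtain ⟨Q, hQ⟩ := h2.exists_le_sylow
    obtain ⟨b, rfl⟩ := MulAction.exists_smul_eq (V.comap π) Q P
    exact ⟨b, b.2, _, smul_mem_pointwise_smul _ _ _ (hQ (mem_zpowers _)), rfl⟩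

theorem exists_P (h : Loc π x s) (T : Tg L p) : ∃ (P : Subgroup M) (y : L), orderOf y = p ∧
    IsPGroup p P ∧ x ∈ normalizer (P : Set M) ∧ P ≤ (zpowers y).comap π ∧ ∃ g ∈ P, π g = y := by
  obtain ⟨y, h1, h2⟩ := T.frob _ h.opx
  obtain ⟨P, a1, a2, a3, a4, -⟩ := h.syl T.prime (by rcases T.pp with rfl | rfl <;> norm_num)
    (IsPGroup.of_card (n := 1) (by rw [Nat.card_zpowers, h1, pow_one])) h2
  exact ⟨P, y, h1, a1, a2, a3, a4 y (mem_zpowers y)⟩

omit [Finite M] in
theorem fpf (h : Loc π x s) (T : Tg L p) {P : Subgroup M} (hP : IsPGroup p P) {g : M} (hg : g ∈ P)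
    (hc : Commute g x) : g = 1 := by
  obtain ⟨n, hn⟩ := hP ⟨g, hg⟩
  have h1 : g ^ p ^ n = 1 := congrArg Subtype.val hn
  have h2 : (p ^ n).Coprime 6 := Nat.Coprime.pow_left _ (by rcases T.pp with rfl | rfl <;> norm_num)
  exact (pow_gcd_eq_one.2 ⟨h1, h.six g hc⟩).symm.trans (by rw [h2, pow_one]) |>.symm

/-- Wielandt's formula -/
theorem wie (h : Loc π x s) (T : Tg L p) {P N : Subgroup M} (hP : IsPGroup p P)
    (hx : x ∈ normalizer (P : Set M)) (hN : N.Normal) (two : IsPGroup 2 N) :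
    Nat.card ↥(N ⊓ centralizer ((P ⊔ zpowers x : Subgroup M) : Set M)) ^ 3 * Nat.card N =
      Nat.card ↥(N ⊓ centralizer ({x} : Set M)) ^ 3 * Nat.card ↥(N ⊓ centralizer (P : Set M)) := by
  have := Fact.mk T.prime
  have := two.isNilpotent
  have h1 := zpowers_le.2 hx
  rw [← H49.cent_zpowers, ← h.card_zp]
  refine H5.frobenius_wielandt P (zpowers x) N (eq_bot_iff.2 fun g hg => ?_)
    (fun e he u hu => (mem_normalizer_iff.1 (h1 he) u).1 hu)
    (fun e he e1 u hu c => h.fpf T hP hu (h.comm_of_zp he e1 c.symm))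
    (by rw [normalizer_eq_top]; exact le_top) inferInstance ?_
  · obtain ⟨n, hn⟩ := hg.2
    exact h.fpf T hP hg.1 (hn ▸ (Commute.refl x).zpow_left n)
  · obtain ⟨a, ha⟩ := IsPGroup.iff_card.1 hP
    obtain ⟨b, hb⟩ := IsPGroup.iff_card.1 two
    refine Nat.Coprime.coprime_dvd_right (H49.card_sup_dvd (Or.inr h1)) ?_
    rw [ha, hb, h.card_zp]
    exact Nat.Coprime.pow_left _ (Nat.Coprime.mul_right (Nat.Coprime.pow_right _
      (by rcases T.pp with rfl | rfl <;> norm_num)) (by norm_num))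

/-- coprime lifting of centralisers -/
theorem lift {K : Type*} [Group K] (h : Loc π x s) (f : M →* K) {S : Subgroup M}
    (hx : x ∈ normalizer (S : Set M)) (h3 : ¬ 3 ∣ Nat.card ↥(S ⊓ f.ker)) {g : M} (hg : g ∈ S)
    (hc : Commute (f g) (f x)) : ∃ g' ∈ S, Commute g' x ∧ f g' = f g := by
  have h1 := zpowers_le.2 hx
  obtain ⟨n, hn, e⟩ := H1.coset_fixed (zpowers x) (S ⊓ f.ker)
    (H49.norm_inf h1 (by rw [normalizer_eq_top]; exact le_top))
    (h.card_zp ▸ (Nat.Prime.coprime_iff_not_dvd Nat.prime_three).2 h3) (Or.inl inferInstance) g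
    fun a ha => mem_inf.2 ⟨by
      simpa only [mul_assoc] using mul_mem (inv_mem hg) (H49.conj_mem_of_norm h1 ha hg), by
      obtain ⟨k, rfl⟩ := ha
      have := (hc.zpow_right k).eq
      simp only [MonoidHom.mem_ker, map_mul, map_inv, map_zpow]
      rw [mul_assoc _ _ (f g), ← this]; group⟩
  exact ⟨g * n, mul_mem hg hn.1, (e x (mem_zpowers x)).symm, by
    rw [map_mul, MonoidHom.mem_ker.1 hn.2, mul_one]⟩

omit [Finite M] in
theorem not3 (h : Loc π x s) {N : Subgroup M} (hle : N ≤ π.ker) (S : Subgroup M) :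
    ¬ 3 ∣ Nat.card ↥(S ⊓ N) := fun e => h.cop (e.trans (card_dvd_of_le (inf_le_right.trans hle)))

theorem lift' (h : Loc π x s) {N : Subgroup M} [N.Normal] (hle : N ≤ π.ker) {g : M ⧸ N}
    (hc : Commute g (x : M ⧸ N)) : ∃ g' : M, Commute g' x ∧ (g' : M ⧸ N) = g := by
  obtain ⟨g, rfl⟩ := QuotientGroup.mk_surjective g
  obtain ⟨g', -, h1, h2⟩ := h.lift (QuotientGroup.mk' N) (S := ⊤)
    (by rw [normalizer_eq_top]; trivial) (by rw [QuotientGroup.ker_mk']; exact h.not3 hle _)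
    (mem_top g) hc
  exact ⟨g', h1, h2⟩

omit [Finite M] in
theorem ker_quo {N : Subgroup M} [N.Normal] (hle : N ≤ π.ker) :
    (QuotientGroup.lift N π hle).ker = π.ker.map (QuotientGroup.mk' N) := QuotientGroup.ker_lift N π hle

theorem quo (h : Loc π x s) (N : Subgroup M) [N.Normal] (hle : N ≤ π.ker) :
    Loc (QuotientGroup.lift N π hle) (x : M ⧸ N) (s : M ⧸ N) := by
  have := h.solv
  refine ⟨QuotientGroup.lift_surjective_of_surjective N π h.surj hle, ?_, fun e => h.cop (e.trans ?_),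
    orderOf_eq_prime (hp := ⟨Nat.prime_three⟩) (by rw [← QuotientGroup.mk_pow, h.x3]; rfl)
      fun e => h.x_ker (hle ((QuotientGroup.eq_one_iff _).1 e)),
    orderOf_eq_prime (by rw [← QuotientGroup.mk_pow, pow_two, h.ss]; rfl) fun e => ?_,
    congrArg (QuotientGroup.mk' N) h.inv, fun g hg => ?_, fun g k hg hk => ?_, fun g hg h2 => ?_⟩
  · rw [ker_quo]; exact Group.isSolvable_of_surjective (MonoidHom.subgroupMap_surjective _ _)
  · rw [ker_quo]; exact card_map_dvd _ _
  · have := h.ops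
    rw [MonoidHom.mem_ker.1 (hle ((QuotientGroup.eq_one_iff _).1 e)), orderOf_one] at this
    omega
  · obtain ⟨g, c, rfl⟩ := h.lift' hle hg
    rw [← QuotientGroup.mk_pow, h.six g c]; rfl
  · obtain ⟨g, c, rfl⟩ := h.lift' hle hg
    obtain ⟨k, d, rfl⟩ := h.lift' hle hk
    exact (h.ab g k c d).map (QuotientGroup.mk' N)
  · obtain ⟨g, c, rfl⟩ := h.lift' hle hg
    have := (h.cs (g ^ 3) (c.pow_left 3) (by rw [← pow_add, h.six g c])).map (QuotientGroup.mk' N)
    rwa [map_pow, pow_succ, pow_two, show QuotientGroup.mk' N g * QuotientGroup.mk' N g = 1 from h2,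
      one_mul] at this

theorem card_quo (h : Loc π x s) {N K : Subgroup M} [N.Normal] (hle : N ≤ π.ker) (hK : N ≤ K)
    (hx : x ∈ normalizer (K : Set M)) :
    Nat.card ↥(K.map (QuotientGroup.mk' N) ⊓ centralizer ({(x : M ⧸ N)} : Set (M ⧸ N))) *
      Nat.card ↥(N ⊓ centralizer ({x} : Set M)) = Nat.card ↥(K ⊓ centralizer ({x} : Set M)) := by
  have e : K.map (QuotientGroup.mk' N) ⊓ centralizer ({(x : M ⧸ N)} : Set (M ⧸ N)) =
      (K ⊓ centralizer ({x} : Set M)).map (QuotientGroup.mk' N) := by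
    refine le_antisymm ?_ ?_
    · rintro _ ⟨⟨g, hg, rfl⟩, hc⟩
      obtain ⟨g', a, b, c⟩ := h.lift (QuotientGroup.mk' N) hx
        (by rw [QuotientGroup.ker_mk']; exact h.not3 hle _) hg (mem_centralizer_singleton_iff.1 hc)
      exact ⟨g', ⟨a, mem_centralizer_singleton_iff.2 b⟩, c⟩
    · rintro _ ⟨g, ⟨a, b⟩, rfl⟩
      exact ⟨⟨g, a, rfl⟩, mem_centralizer_singleton_iff.2
        (congrArg (QuotientGroup.mk' N) (mem_centralizer_singleton_iff.1 b))⟩
  rw [e, ← H49.card_inf_mul_relIndex N (K ⊓ _), ← inf_assoc, inf_eq_left.2 hK, mul_comm,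
    ← relIndex_ker, QuotientGroup.ker_mk']

end Loc

end Cfsg.Agent.CV
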