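import Cfsg.Agent.H49.Prod

/-! Scott's lemma and fixed points of `S₃` on an elementary abelian 2-group. -/

set_option autoImplicit false

namespace Cfsg.Agent.CV

open Subgroup

section
variable {A : Type*} [CommGroup A]

/-- the map `n ↦ [n, g]` -/
def dd (g : MulAut A) : A →* A :=
  MonoidHom.mk' (fun n => n⁻¹ * g n) fun a b => by rw [map_mul, mul_inv, mul_mul_mul_comm]

theorem dd_apply (g : MulAut A) (n : A) : dd g n = n⁻¹ * g n := rfl

theorem mem_dd_ker {g : MulAut A} {n : A} : n ∈ (dd g).ker ↔ g n = n :=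
  inv_mul_eq_one.trans eq_comm

theorem card_dd (g : MulAut A) : Nat.card (dd g).ker * Nat.card (dd g).range = Nat.card A := by
  rw [← index_ker, card_mul_index]

theorem scott [Finite A] (a b : MulAut A)
    (irr : ∀ W : Subgroup A, (∀ n ∈ W, a n ∈ W) → (∀ n ∈ W, b n ∈ W) → W = ⊥ ∨ W = ⊤)
    (h : (dd a).ker ≠ ⊤) :
    Nat.card (dd a).ker * Nat.card (dd b).ker * Nat.card (dd (a * b)).ker ≤ Nat.card A := by
  let be : (dd a).range × (dd b).range × (dd (a * b)).range →* A := (dd a).range.subtype.coprod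
    ((a.toMonoidHom.comp (dd b).range.subtype).coprod (dd (a * b)).range.subtype⁻¹)
  let de : A → be.ker := fun n =>
    ⟨((dd a).rangeRestrict n, (dd b).rangeRestrict n, (dd (a * b)).rangeRestrict n), by
      show n⁻¹ * a n * (a (n⁻¹ * b n) * (n⁻¹ * a (b n))⁻¹) = 1
      rw [map_mul, map_inv]; group⟩
  have k : ∀ (g : MulAut A) (W : Subgroup A), (∀ n, dd g n ∈ W) → ∀ n, n ∈ W ↔ g n ∈ W :=
    fun g W hW n => by rw [← mul_mem_cancel_right (hW n), dd_apply, mul_inv_cancel_left]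
  have h1 : Function.Injective de := fun m n e => by
    have e1 : dd a m = dd a n := congrArg (fun z => (z.1.1 : A)) e
    have e2 : dd b m = dd b n := congrArg (fun z => (z.1.2.1 : A)) e
    have := (irr ((dd a).ker ⊓ (dd b).ker) (fun n hn => (mem_dd_ker.1 hn.1).symm ▸ hn)
      fun n hn => (mem_dd_ker.1 hn.2).symm ▸ hn).resolve_right fun e => h (eq_top_iff.2 (e.ge.trans inf_le_left))
    exact inv_mul_eq_one.1 (this.le ⟨by simp [e1], by simp [e2]⟩)
  have ha : ∀ n, dd a n ∈ be.range := fun n => ⟨(⟨_, n, rfl⟩, 1, 1), by simp [be]⟩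
  have hb : ∀ n, dd b n ∈ be.range := fun n =>
    (k a _ ha _).2 ⟨(1, ⟨_, n, rfl⟩, 1), by simp [be]⟩
  have h2 := (irr be.range (fun n => (k a _ ha n).1) fun n => (k b _ hb n).1).resolve_left
    fun e => h (eq_top_iff.2 fun n _ => e.le (ha n))
  have h3 := be.ker.card_mul_index
  rw [index_ker, h2, card_top, Nat.card_prod, Nat.card_prod] at h3
  have h4 := Nat.mul_le_mul_right (Nat.card A) (Nat.card_le_card_of_injective de h1)
  refine Nat.le_of_mul_le_mul_right ?_ (Nat.mul_pos (Nat.card_pos (α := A)) (Nat.card_pos (α := A)))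
  refine (Nat.mul_le_mul_left _ (h4.trans h3.le)).trans (le_of_eq ?_)
  calc _ = Nat.card (dd a).ker * Nat.card (dd a).range * (Nat.card (dd b).ker * Nat.card (dd b).range *
        (Nat.card (dd (a * b)).ker * Nat.card (dd (a * b)).range)) := by ring
    _ = _ := by rw [card_dd, card_dd, card_dd]

variable {ξ σ : MulAut A}

theorem tr_fix (hξ : ξ * ξ = ξ⁻¹) (n : A) : ξ (n * ξ n * ξ⁻¹ n) = n * ξ n * ξ⁻¹ n := by
  rw [map_mul, map_mul, ← MulAut.mul_apply _ ξ ξ, hξ, ← MulAut.mul_apply _ ξ ξ⁻¹, mul_inv_cancel,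
    MulAut.one_apply, mul_comm _ n, mul_assoc]

theorem dd_range_le (h2 : ∀ n : A, n * n = 1) (hξ : ξ * ξ = ξ⁻¹) (hi : σ * ξ * σ⁻¹ = ξ⁻¹)
    (hc : ∀ n, ξ n = n → σ n = n) : (dd σ).range ≤ (dd ξ).range := by
  have k : ∀ n, n⁻¹ * (n * ξ n * ξ⁻¹ n) ∈ (dd ξ).range := fun n => ⟨ξ n, by
    rw [dd_apply, ← MulAut.mul_apply, hξ, inv_eq_of_mul_eq_one_right (h2 _), mul_assoc,
      inv_mul_cancel_left]⟩
  rintro _ ⟨n, rfl⟩
  have e1 : σ (ξ n) = ξ⁻¹ (σ n) := by rw [← hi]; simp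
  have e2 : σ (ξ⁻¹ n) = ξ (σ n) := by
    rw [← inv_inv ξ, inv_inv ξ⁻¹, ← hi, conj_inv, hi]; simp
  have e3 := hc _ (tr_fix hξ n)
  rw [map_mul, map_mul, e1, e2, mul_right_comm] at e3
  have := mul_mem (k n) (inv_mem (k (σ n)))
  rwa [e3, mul_inv_rev, inv_inv, ← mul_assoc, mul_inv_cancel_right] at this

theorem dd_disj (h2 : ∀ n : A, n * n = 1) (hξ : ξ * ξ = ξ⁻¹) : (dd ξ).ker ⊓ (dd ξ).range = ⊥ := by
  refine eq_bot_iff.2 ?_
  rintro _ ⟨h1, n, rfl⟩
  have e1 := mem_dd_ker.1 h1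
  have e2 : ξ⁻¹ (dd ξ n) = dd ξ n := by nth_rewrite 1 [← e1]; simp
  have e3 : dd ξ n * ξ (dd ξ n) * ξ⁻¹ (dd ξ n) = 1 := by
    simp only [dd_apply, map_mul, map_inv, ← MulAut.mul_apply, hξ, inv_mul_cancel, MulAut.one_apply]
    group
  rwa [e1, e2, h2, one_mul] at e3

theorem card_fix_sq [Finite A] (h2 : ∀ n : A, n * n = 1) (hξ : ξ * ξ = ξ⁻¹) (hσ : σ * σ = 1)
    (hi : σ * ξ * σ⁻¹ = ξ⁻¹) (hc : ∀ n, ξ n = n → σ n = n) :
    Nat.card (dd σ).ker ^ 2 = Nat.card A * Nat.card (dd ξ).ker := by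
  refine le_antisymm ?_ ?_
  · have h3 := H49.card_mul_le (H := (dd σ).ker) (K := (dd σ).ker.map ξ.toMonoidHom) le_top le_top
    rw [card_map_of_injective ξ.injective, card_top, ← pow_two] at h3
    refine h3.trans (Nat.mul_le_mul_left _ (card_le_of_le ?_))
    rintro _ ⟨h4, n, h5, rfl⟩
    have e1 : σ (ξ n) = ξ⁻¹ (σ n) := by rw [← hi]; simp
    rw [mem_dd_ker.1 h5, show σ (ξ n) = ξ n from mem_dd_ker.1 h4, ← hξ] at e1
    exact mem_dd_ker.2 e1.symm
  · have h3 := H49.card_mul_le (H := (dd ξ).ker) (K := (dd σ).range) (M := (dd σ).ker)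
      (fun n hn => mem_dd_ker.2 (hc n (mem_dd_ker.1 hn))) (by
        rintro _ ⟨n, rfl⟩
        rw [mem_dd_ker, dd_apply, map_mul, map_inv, ← MulAut.mul_apply, hσ, MulAut.one_apply, mul_comm,
          inv_eq_of_mul_eq_one_right (h2 _), inv_eq_of_mul_eq_one_right (h2 _)])
    rw [eq_bot_iff.2 ((inf_le_inf_left _ (dd_range_le h2 hξ hi hc)).trans (dd_disj h2 hξ).le), card_bot,
      mul_one] at h3
    rw [← card_dd σ, pow_two, mul_assoc, mul_comm _ (Nat.card (dd ξ).ker)]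
    exact Nat.mul_le_mul_left _ h3

end

variable {M : Type*} [Group M] [Finite M] {N : Subgroup M} [N.Normal]

theorem scottM (hc : IsMulCommutative N) (a b : M)
    (irr : ∀ W ≤ N, a ∈ normalizer (W : Set M) → b ∈ normalizer (W : Set M) → W = ⊥ ∨ W = N)
    (h : ¬ N ≤ centralizer ({a} : Set M)) :
    Nat.card ↥(N ⊓ centralizer ({a} : Set M)) * Nat.card ↥(N ⊓ centralizer ({b} : Set M)) *
      Nat.card ↥(N ⊓ centralizer ({a * b} : Set M)) ≤ Nat.card N := by
  let _ : CommGroup N := { (inferInstance : Group N) with mul_comm := hc.1.1 }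
  have k : ∀ g : M, (dd (MulAut.conjNormal g : MulAut N)).ker = (centralizer {g}).subgroupOf N :=
    fun g => Subgroup.ext fun n => mem_dd_ker.trans (Subtype.ext_iff.trans
      (mul_inv_eq_iff_eq_mul.trans (eq_comm.trans H49.mem_cent1.symm)))
  have := scott (MulAut.conjNormal a : MulAut N) (MulAut.conjNormal b) (fun W ha hb => by
    have k2 : ∀ g : M, (∀ n ∈ W, MulAut.conjNormal g n ∈ W) →
        g ∈ normalizer ((W.map N.subtype : Subgroup M) : Set M) := fun g hg =>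
      mem_normalizer_fintype (by rintro _ ⟨n, hn, rfl⟩; exact ⟨_, hg n hn, rfl⟩)
    refine (irr _ (map_subtype_le W) (k2 a ha) (k2 b hb)).imp (fun e => ?_) fun e => ?_
    · exact (map_eq_bot_iff_of_injective _ N.subtype_injective).1 e
    · exact map_injective N.subtype_injective (by rw [e, ← MonoidHom.range_eq_map, range_subtype]))
    (by rwa [k, Ne, subgroupOf_eq_top])
  simpa only [← map_mul, k, H49.card_subgroupOf, inf_comm] using this

theorem fixM {x s : M} (sq : ∀ n ∈ N, n * n = 1) (hx : x * x = x⁻¹) (hs : s * s = 1)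
    (hi : s * x * s⁻¹ = x⁻¹) (hc : ∀ n ∈ N, Commute n x → Commute n s) :
    Nat.card ↥(N ⊓ centralizer ({s} : Set M)) ^ 2 =
      Nat.card N * Nat.card ↥(N ⊓ centralizer ({x} : Set M)) ∧
    ∀ n ∈ N, ∃ m ∈ N, m⁻¹ * (x * m * x⁻¹) = n⁻¹ * (s * n * s⁻¹) := by
  let _ : CommGroup N := { (inferInstance : Group N) with mul_comm := fun a b => Subtype.ext (by
    have := inv_eq_of_mul_eq_one_right (sq _ (a * b).2)
    rw [coe_mul, mul_inv_rev, inv_eq_of_mul_eq_one_right (sq _ a.2),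
      inv_eq_of_mul_eq_one_right (sq _ b.2)] at this
    exact this.symm) }
  have k : ∀ g : M, (dd (MulAut.conjNormal g : MulAut N)).ker = (centralizer {g}).subgroupOf N :=
    fun g => Subgroup.ext fun n => mem_dd_ker.trans (Subtype.ext_iff.trans
      (mul_inv_eq_iff_eq_mul.trans (eq_comm.trans H49.mem_cent1.symm)))
  have h2 : ∀ n : N, n * n = 1 := fun n => Subtype.ext (sq n n.2)
  have h3 : (MulAut.conjNormal x : MulAut N) * MulAut.conjNormal x = (MulAut.conjNormal x)⁻¹ := by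
    rw [← map_mul, hx, map_inv]
  have h4 : (MulAut.conjNormal s : MulAut N) * MulAut.conjNormal x * (MulAut.conjNormal s)⁻¹ =
      (MulAut.conjNormal x)⁻¹ := by rw [← map_inv, ← map_mul, ← map_mul, hi, map_inv]
  have h5 : ∀ n : N, MulAut.conjNormal x n = n → MulAut.conjNormal s n = n := fun n e =>
    Subtype.ext (mul_inv_eq_iff_eq_mul.2
      (hc n n.2 (mul_inv_eq_iff_eq_mul.1 (congrArg Subtype.val e)).symm).symm)
  refine ⟨?_, fun n hn => ?_⟩
  · simpa only [k, H49.card_subgroupOf, inf_comm] using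
      card_fix_sq h2 h3 (by rw [← map_mul, hs, map_one]) h4 h5
  · obtain ⟨m, hm⟩ := dd_range_le h2 h3 h4 h5 ⟨⟨n, hn⟩, rfl⟩
    exact ⟨m, m.2, congrArg Subtype.val hm⟩

end Cfsg.Agent.CV
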