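import Cfsg.Agent.CV.Defs
import Cfsg.Agent.H14.Code
import Cfsg.Agent.H14.L27
import Cfsg.Agent.H56.Mod.L213
import Mathlib.LinearAlgebra.Projectivization.PSL.PSL2

/-! Facts on L2(7), L2(13), PGL2(7) (see notes/CV.md; data: tools_h14/cv/gen.py). -/

set_option autoImplicit false
set_option maxRecDepth 100000

namespace Cfsg.Agent.CV

open Subgroup

namespace TgQ

open Cfsg.Agent.H14 Cfsg.Agent.H56

def dC7L0 : Lev := ⟨nat_lit 0, nat_lit 255, (.node (nat_lit 4) (.node (nat_lit 2) (.node (nat_lit 1) (.leaf (nat_lit 0xfac688)) (.leaf (nat_lit 0xafad01))) (.node (nat_lit 3) (.leaf (nat_lit 0x757226)) (.leaf (nat_lit 0xde5053)))) (.node (nat_lit 6) (.node (nat_lit 5) (.leaf (nat_lit 0x458bf4)) (.leaf (nat_lit 0x2839bd))) (.node (nat_lit 7) (.leaf (nat_lit 0x831f5a)) (.leaf (nat_lit 0x10e4ef)))))⟩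
def dC7C0 : LevCert := ⟨dC7L0,
    [(nat_lit 1, nat_lit 0), (nat_lit 3, nat_lit 1), (nat_lit 2, nat_lit 1), (nat_lit 6, nat_lit 0), (nat_lit 4, nat_lit 0), (nat_lit 7, nat_lit 1), (nat_lit 5, nat_lit 1)],
    [],
    []⟩
def dC7 : List LevCert := [dC7C0]
def dC7L : List Lev := [dC7L0]
def dat7 : List ℕ := [nat_lit 0xafad01, nat_lit 0x535ec8, nat_lit 0xafad01, nat_lit 0x5711e3, nat_lit 0x4fea60, nat_lit 0xde5053]
def dC13L0 : Lev := ⟨nat_lit 0, nat_lit 3, (.node (nat_lit 1) (.leaf (nat_lit 0xdcba9876543210)) (.leaf (nat_lit 0x58ab3c67d49201)))⟩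
def dC13C0 : LevCert := ⟨dC13L0,
    [(nat_lit 1, nat_lit 0)],
    [[nat_lit 0, nat_lit 0, nat_lit 2]],
    [nat_lit 0xcd6735ab829410]⟩
def dC13L1 : Lev := ⟨nat_lit 2, nat_lit 20, (.node (nat_lit 4) (.leaf (nat_lit 0xdcba9876543210)) (.leaf (nat_lit 0xcd6735ab829410)))⟩
def dC13C1 : LevCert := ⟨dC13L1,
    [(nat_lit 4, nat_lit 0)],
    [],
    []⟩
def dC13 : List LevCert := [dC13C0, dC13C1]
def dC13L : List Lev := [dC13L0, dC13L1]
def dat13 : List ℕ := [nat_lit 0x58ab3c67d49201, nat_lit 0x53ba86c94d7021, nat_lit 0xd9abc783456120, nat_lit 0x573428c1dab960, nat_lit 0x79b3048ad62c51, nat_lit 0xcd6735ab829410]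
def lCL0 : Lev := ⟨nat_lit 0, nat_lit 255, (.node (nat_lit 4) (.node (nat_lit 2) (.node (nat_lit 1) (.leaf (nat_lit 0xfac688)) (.leaf (nat_lit 0xd7c642))) (.node (nat_lit 3) (.leaf (nat_lit 0xbf4611)) (.leaf (nat_lit 0xce206f)))) (.node (nat_lit 6) (.node (nat_lit 5) (.leaf (nat_lit 0xee02b5)) (.leaf (nat_lit 0x84657b))) (.node (nat_lit 7) (.leaf (nat_lit 0x8153f3)) (.leaf (nat_lit 0x10e4ef)))))⟩
def lCC0 : LevCert := ⟨lCL0,
    [(nat_lit 2, nat_lit 0), (nat_lit 1, nat_lit 0), (nat_lit 3, nat_lit 1), (nat_lit 4, nat_lit 1), (nat_lit 6, nat_lit 1), (nat_lit 5, nat_lit 1), (nat_lit 7, nat_lit 0)],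
    [[nat_lit 0, nat_lit 2, nat_lit 0, nat_lit 2, nat_lit 2], [nat_lit 2, nat_lit 2, nat_lit 4, nat_lit 4, nat_lit 4, nat_lit 2, nat_lit 4]],
    [nat_lit 0x5ccb98, nat_lit 0x57b330]⟩
def lCL1 : Lev := ⟨nat_lit 2, nat_lit 254, (.node (nat_lit 4) (.node (nat_lit 2) (.leaf (nat_lit 0xef1b10)) (.node (nat_lit 3) (.leaf (nat_lit 0xfac688)) (.leaf (nat_lit 0x9bd458)))) (.node (nat_lit 6) (.node (nat_lit 5) (.leaf (nat_lit 0x3e2770)) (.leaf (nat_lit 0xc55738))) (.node (nat_lit 7) (.leaf (nat_lit 0xc9c3e8)) (.leaf (nat_lit 0x5ccb98)))))⟩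
def lCC1 : LevCert := ⟨lCL1,
    [(nat_lit 7, nat_lit 0), (nat_lit 6, nat_lit 0), (nat_lit 5, nat_lit 1), (nat_lit 1, nat_lit 1), (nat_lit 3, nat_lit 0), (nat_lit 4, nat_lit 1)],
    [[nat_lit 0, nat_lit 0, nat_lit 2, nat_lit 0, nat_lit 0, nat_lit 2, nat_lit 2]],
    [nat_lit 0x2fe8a8]⟩
def lCL2 : Lev := ⟨nat_lit 1, nat_lit 162, (.node (nat_lit 5) (.leaf (nat_lit 0xfac688)) (.node (nat_lit 7) (.leaf (nat_lit 0xb0bcb8)) (.leaf (nat_lit 0x2fe8a8))))⟩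
def lCC2 : LevCert := ⟨lCL2,
    [(nat_lit 7, nat_lit 0), (nat_lit 5, nat_lit 0)],
    [],
    []⟩
def lC : List LevCert := [lCC0, lCC1, lCC2]
def lCL : List Lev := [lCL0, lCL1, lCL2]
def lG : List ℕ := [nat_lit 0xbf4611, nat_lit 0xae143e]
def PA : ℕ := nat_lit 0x7d0b31
def PB : ℕ := nat_lit 0x770e54
def PX1 : ℕ := nat_lit 0x757988
def PX2 : ℕ := nat_lit 0x3e2770
def PZI : ℕ := nat_lit 0xde54c1
def PZO : ℕ := nat_lit 0xf73881

theorem tg_mk {L : Type*} [Group L] [Finite L] {p j : ℕ} (hs : IsSimpleGroup L) (pp : p = 7 ∨ p = 13)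
    (h3 : 3 ∣ Nat.card L) (h9 : ¬ 9 ∣ Nat.card L) (psq : ¬ p ^ 2 ∣ Nat.card L) {z x s a y b : L}
    (c2 : ∀ g, orderOf g = 2 → IsConj z g) (c3 : ∀ g, orderOf g = 3 → IsConj x g)
    (hx : s * x * s⁻¹ = x⁻¹) (oa : orderOf a = 2) (ha : a * (x * a * x⁻¹) * (x⁻¹ * a * x) = 1)
    (oy : orderOf y = p) (hy : x * y * x⁻¹ = y ^ j) (oz : orderOf z = 2) (ob : orderOf b = 2)
    (h4 : (z * b) ^ 4 = 1) (ho : Odd (closure ({z, b} : Set L)).index) : Tg L p := by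
  have key : ∀ g, orderOf g = 3 → ∃ φ : L ≃* L, φ x = g := fun g hg =>
    let ⟨c, hc⟩ := isConj_iff.1 (c3 g hg); ⟨MulAut.conj c, hc⟩
  refine ⟨hs, pp, h3, h9, psq, fun u v hu hv => (c2 u hu).symm.trans (c2 v hv), fun g hg => ?_,
    fun g hg => ?_, fun g hg => ?_, z, b, oz, ob, h4, ho⟩ <;> obtain ⟨φ, rfl⟩ := key g hg
  · exact ⟨φ s, by simpa using congrArg φ hx⟩
  · exact ⟨φ a, (φ.orderOf_eq a).trans oa, by simpa using congrArg φ ha⟩
  · refine ⟨φ y, (φ.orderOf_eq y).trans oy, mem_normalizer_fintype ?_⟩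
    rintro _ ⟨i, rfl⟩
    have h : φ x * φ y * (φ x)⁻¹ = φ y ^ j := by simpa using congrArg φ hy
    show φ x * φ y ^ i * (φ x)⁻¹ ∈ zpowers (φ y)
    rw [← conj_zpow, h]
    exact zpow_mem (pow_mem (mem_zpowers _) _) _

theorem tg_of {α : Type*} {n k M : ℕ} {E : Enc α n k M} {K : Subgroup (Equiv.Perm α)} {L : Type*}
    [Group L] (e : L ≃* K) {Ls : List Lev} (hC : E.IsChain Ls K) {cl : List Cls} (hcl : E.ClassList K cl)
    {p j N Z X S A Y B : ℕ} {cs : List LevCert} (hN : Nat.card K = N + 1) (hs : IsSimpleGroup L)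
    (pp : p + 1 = 7 ∨ p + 1 = 13) (hm : memOK k M n Ls [Z, X, S, A, Y, B] = true)
    (h : 3 ∣ N + 1 ∧ ¬ 9 ∣ N + 1 ∧ ¬ (p + 1) ^ 2 ∣ N + 1 ∧ ordClsOK k M n 20 cl 2 [Z] = true ∧
      ordClsOK k M n 20 cl 3 [X] = true ∧ comp k M n (comp k M n S X) (inv k M n S) = inv k M n X ∧
      ordN k M n A 2 = 2 ∧ comp k M n (comp k M n A (comp k M n (comp k M n X A) (inv k M n X)))
        (comp k M n (comp k M n (inv k M n X) A) X) = idP k n ∧ ordN k M n Y (p + 1) = p + 1 ∧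
      comp k M n (comp k M n X Y) (inv k M n X) = powP k M n Y j ∧ ordN k M n Z 2 = 2 ∧
      ordN k M n B 2 = 2 ∧ powP k M n (comp k M n Z B) 4 = idP k n ∧ memOK k M n Ls [Z, B] = true ∧
      ssOK k M n cs [Z, B] = true ∧ (N + 1) / chainCard n (cs.map LevCert.L) % 2 = 1) : Tg L (p + 1) := by
  have hc : Nat.card L = N + 1 := (Nat.card_congr e.toEquiv).trans hN
  have : Finite L := Nat.finite_of_card_ne_zero (hc ▸ N.succ_ne_zero)
  obtain ⟨z, rfl⟩ := hC.cd_ex e hm (P := Z) (by simp)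
  obtain ⟨x, rfl⟩ := hC.cd_ex e hm (P := X) (by simp)
  obtain ⟨s, rfl⟩ := hC.cd_ex e hm (P := S) (by simp)
  obtain ⟨a, rfl⟩ := hC.cd_ex e hm (P := A) (by simp)
  obtain ⟨y, rfl⟩ := hC.cd_ex e hm (P := Y) (by simp)
  obtain ⟨b, rfl⟩ := hC.cd_ex e hm (P := B) (by simp)
  simp only [← E.cd_mul, ← E.cd_inv, ← E.cd_pow, ← E.cd_one e, E.cd_inj] at h
  obtain ⟨h1, h2, h3, h4, h5, h6, h7, h8, h9, h10, h11, h12, h13, h14, h15, h16⟩ := h
  refine tg_mk hs pp (hc ▸ h1) (hc ▸ h2) (hc ▸ h3) (fun g hg => ?_) (fun g hg => ?_) h6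
    (E.cd_ord e rfl h7) h8 (E.cd_ord e rfl h9) h10 (E.cd_ord e rfl h11) (E.cd_ord e rfl h12) h13 ?_
  · obtain ⟨r, q1, q2⟩ := hcl.cd_cls e h4 g hg
    rwa [(E.cd_inj e).1 (List.mem_singleton.1 q1)] at q2
  · obtain ⟨r, q1, q2⟩ := hcl.cd_cls e h5 g hg
    rwa [(E.cd_inj e).1 (List.mem_singleton.1 q1)] at q2
  · have q := (hC.cd_sub e h14 h15).1
    rw [show {g | E.cd e g ∈ [E.cd e z, E.cd e b]} = {z, b} from Set.ext fun g => by
      simp [E.cd_inj]] at q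
    rw [Nat.odd_iff, ← h16, ← q, ← hc, ← (closure ({z, b} : Set L)).card_mul_index,
      Nat.mul_div_cancel_left _ Nat.card_pos]

instance : Fact (Nat.Prime 7) := ⟨by norm_num⟩
instance : Fact (Nat.Prime 13) := ⟨by norm_num⟩

theorem pf_of {H : Type*} [Group H] (e : H ≃* P27.K) :
    ∃ (L : Subgroup H) (a b x₁ x₂ : H), PF L a b x₁ x₂ := by
  have hC := P27.chain
  have hm : memOK 3 8 8 P27.certL [PA, PB, PX1, PX2] = true := by decide +kernel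
  obtain ⟨a, ea⟩ := hC.cd_ex e hm (P := PA) (by simp)
  obtain ⟨b, eb⟩ := hC.cd_ex e hm (P := PB) (by simp)
  obtain ⟨x, ex⟩ := hC.cd_ex e hm (P := PX1) (by simp)
  obtain ⟨y, ey⟩ := hC.cd_ex e hm (P := PX2) (by simp)
  obtain ⟨cL, mL⟩ := hC.cd_sub e (l := lG) (cs := lC) (by decide +kernel) (by decide +kernel)
  generalize closure {g | P27.E.cd e g ∈ lG} = L at cL mL
  have hc : Nat.card H = 336 := (Nat.card_congr e.toEquiv).trans P27.card
  have hi : L.index = 2 := by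
    have := L.card_mul_index
    rw [cL, hc, show chainCard 8 (lC.map LevCert.L) = 168 by decide +kernel] at this
    omega
  have hn := normal_of_index_eq_two hi
  have cj : ∀ {u v : H}, IsConj u v → (u ∈ L ↔ v ∈ L) := fun h => by
    obtain ⟨c, rfl⟩ := isConj_iff.1 h
    exact ⟨fun h => hn.conj_mem _ h c, fun h => by simpa [mul_assoc] using hn.conj_mem _ h c⁻¹⟩
  have c2 : ∀ c, orderOf c = 2 → ∃ r, IsConj r c ∧
      (c ∈ L ∧ P27.E.cd e r = PZI ∨ c ∉ L ∧ P27.E.cd e r = PZO) := fun c hc => by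
    obtain ⟨r, q1, q2⟩ := P27.classes.cd_cls e (fuel := 20) (Xs := [PZI, PZO]) (by decide +kernel) c hc
    refine ⟨r, q2, ?_⟩
    rw [← cj q2, mL]
    rcases List.mem_pair.1 q1 with q | q <;> rw [q]
    exacts [Or.inl ⟨by decide +kernel, rfl⟩, Or.inr ⟨by decide +kernel, rfl⟩]
  have eq : ∀ {u v : H}, P27.E.cd e u = P27.E.cd e v → u = v := (P27.E.cd_inj e).1
  refine ⟨L, a, b, x, y, hc, hi, P27.E.cd_ord e ea (by decide +kernel),
    P27.E.cd_ord e eb (by decide +kernel), eq ?_, ?_, ?_, fun c h1 d h2 h3 h4 => ?_,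
    fun c h1 d h2 h3 h4 => ?_, fun g hg => ?_, P27.E.cd_ord e ex (by decide +kernel), eq ?_, eq ?_,
    P27.E.cd_ord e ey (by decide +kernel), eq ?_, eq ?_, fun g h1 h2 => ?_, fun g c h1 h2 h3 h4 => ?_⟩
  any_goals
    simp only [mL, Enc.cd_mul, Enc.cd_inv, Enc.cd_pow, ea, eb, ex, ey]; decide +kernel
  · obtain ⟨r, p1, p2⟩ := c2 c h3
    obtain ⟨s, p3, p4⟩ := c2 d h4
    exact p1.symm.trans (eq ((p2.resolve_right fun h => h.1 h1).2.trans
      (p4.resolve_right fun h => h.1 h2).2.symm) ▸ p3)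
  · obtain ⟨r, p1, p2⟩ := c2 c h3
    obtain ⟨s, p3, p4⟩ := c2 d h4
    exact p1.symm.trans (eq ((p2.resolve_left fun h => h1 h.1).2.trans
      (p4.resolve_left fun h => h2 h.1).2.symm) ▸ p3)
  · have := hC.cd_all e (f := fun P => bimp (Nat.beq (comp 3 8 8 P (powP 3 8 8 PA 4))
      (comp 3 8 8 (powP 3 8 8 PA 4) P)) (anyN 8 fun i => Nat.beq P (powP 3 8 8 PA i) ||
        Nat.beq P (comp 3 8 8 (powP 3 8 8 PA i) PB))) (by decide +kernel) g
    simp only [bimp_iff, anyN_iff, Bool.or_eq_true, beq_iff, ← ea, ← eb, ← Enc.cd_mul, ← Enc.cd_pow,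
      Enc.cd_inj] at this
    exact let ⟨i, _, h⟩ := this hg; ⟨i, h⟩
  · have := hC.cd_all e (f := fun P => sift 3 8 8 (lC.map LevCert.L) P ||
      bimp (Nat.beq (powP 3 8 8 P 4) (idP 3 8)) (Nat.beq (comp 3 8 8 P P) (idP 3 8)))
      (by decide +kernel) g
    simp only [bimp_iff, Bool.or_eq_true, beq_iff, ← mL, ← Enc.cd_mul, ← Enc.cd_pow,
      ← P27.E.cd_one e, Enc.cd_inj] at this
    exact this.resolve_left h1 h2
  · have := hC.cd_all e (f := fun P => bimp (sift 3 8 8 (lC.map LevCert.L) P)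
      (bimp (Nat.beq (powP 3 8 8 P 6) (idP 3 8)) (Nat.beq (powP 3 8 8 P 2) (idP 3 8) ||
        Nat.beq (powP 3 8 8 P 3) (idP 3 8)))) (by decide +kernel) (c * g ^ 2)
    simp only [bimp_iff, Bool.or_eq_true, beq_iff, ← mL, ← Enc.cd_pow, ← P27.E.cd_one e,
      Enc.cd_inj] at this
    have o : orderOf (c * g ^ 2) = 6 := by
      have o2 : orderOf (g ^ 2) = 3 := by rw [orderOf_pow' _ two_ne_zero, h1]; rfl
      rw [(h3.pow_right 2).orderOf_mul_eq_mul_orderOf_of_coprime (by rw [h2, o2]; decide), h2, o2]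
    have := this (mul_mem h4 (L.sq_mem_of_index_two hi g)) (o ▸ pow_orderOf_eq_one _)
    simp only [← orderOf_dvd_iff_pow_eq_one, o] at this
    omega

end TgQ

open TgQ Cfsg.Agent.H14

theorem tg7 : Tg L7 7 :=
  let ⟨e⟩ := L27.equiv (ZMod.card 7)
  tg_of e L27.chain L27.classes (p := 6) (j := 4) (cs := dC7) (N := 167) L27.card
    (Matrix.ProjectiveSpecialLinearGroup.rank_two_simple (by simp)) (Or.inl rfl)
    (show H56.memOK _ _ _ _ dat7 = true by decide +kernel) (by decide +kernel)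

theorem tg13 : Tg L13 13 :=
  let ⟨e⟩ := H56.L213.equiv (ZMod.card 13)
  tg_of e H56.L213.chain H56.L213.classes (p := 12) (j := 9) (cs := dC13) (N := 1091) H56.L213.card
    (Matrix.ProjectiveSpecialLinearGroup.rank_two_simple (by simp)) (Or.inr rfl)
    (show H56.memOK _ _ _ _ dat13 = true by decide +kernel) (by decide +kernel)

theorem exists_pf {H : Type*} [Group H] (e : H ≃* P7) :
    ∃ (L : Subgroup H) (a b x₁ x₂ : H), PF L a b x₁ x₂ :=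
  let ⟨f⟩ := P27.equiv (ZMod.card 7)
  pf_of (e.trans f)

end Cfsg.Agent.CV
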